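import Mathlib
import Cfsg.Agent.Lib.Helper18.SLMDefs
import Cfsg.Agent.Lib.Helper87.SLTransv

/-!
# S2332 project SLM (helper18), piece TVCONJ

Two non-trivial transvections of `SL_{k+2}(F)`, `k ≥ 1`, are conjugate: both are conjugate to the
standard transvection (`Helper87.tvSet_conj_std`).
-/

set_option autoImplicit false

namespace Cfsg.Agent.Lib.Helper18.SLM

open Matrix

universe u

variable {F : Type u} [Field F] [Fintype F]

omit [Fintype F] in
/-- A non-trivial transvection lies in the set of abstract transvections. -/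
theorem tvconj_mem_tvSet {k : ℕ} (g : Matrix.SpecialLinearGroup (Fin k) F) (hg : IsTv g)
    (h1 : g ≠ 1) : g ∈ Cfsg.Agent.Lib.Helper87.tvSet (Fin k) F := by
  obtain ⟨a, φ, hφa, hgv⟩ := hg
  refine ⟨a, φ, ?_, ?_, hφa, hgv⟩
  · rintro rfl
    apply h1
    apply Subtype.ext
    rw [hgv]
    simp
  · rintro rfl
    apply h1
    apply Subtype.ext
    rw [hgv]
    simp

omit [Fintype F] in
/-- All non-trivial transvections are conjugate to one standard transvection. -/
theorem tvconj_std {k : ℕ} (hk : 1 ≤ k) :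
    ∃ s : Matrix.SpecialLinearGroup (Fin (k + 2)) F,
      ∀ g : Matrix.SpecialLinearGroup (Fin (k + 2)) F, IsTv g → g ≠ 1 → IsConj g s := by
  have h01 : (⟨0, by omega⟩ : Fin (k + 2)) ≠ ⟨1, by omega⟩ := by
    intro h
    have := congrArg Fin.val h
    simp at this
  have h02 : (⟨0, by omega⟩ : Fin (k + 2)) ≠ ⟨2, by omega⟩ := by
    intro h
    have := congrArg Fin.val h
    simp at this
  have h12 : (⟨1, by omega⟩ : Fin (k + 2)) ≠ ⟨2, by omega⟩ := by
    intro h
    have := congrArg Fin.val h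
    simp at this
  refine ⟨Matrix.SpecialLinearGroup.transvection h01 1, fun g hg h1 => ?_⟩
  obtain ⟨c, hc⟩ := Cfsg.Agent.Lib.Helper87.tvSet_conj_std h01 h02 h12
    (tvconj_mem_tvSet g hg h1)
  rw [isConj_iff]
  exact ⟨c⁻¹, by rw [inv_inv]; exact hc⟩

theorem tv_isConj {k : ℕ} (hk : 1 ≤ k) (g g' : Matrix.SpecialLinearGroup (Fin (k + 2)) F)
    (hg : IsTv g) (hg' : IsTv g') (h1 : g ≠ 1) (h1' : g' ≠ 1) : IsConj g g' := by
  obtain ⟨s, hs⟩ := tvconj_std (F := F) hk
  exact (hs g hg h1).trans (hs g' hg' h1').symm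

end Cfsg.Agent.Lib.Helper18.SLM
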