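import Mathlib
import Cfsg.Prelude.Def_Blocks
import Cfsg.Agent.Lib.Helper83.Mg2
import Cfsg.Agent.Lib.Helper83.Mg4

set_option autoImplicit false
set_option linter.unusedSectionVars false
set_option linter.style.haveILetI false
set_option linter.unusedVariables false

namespace Cfsg.Agent.Lib.Helper83

open scoped ComplexConjugate
open Cfsg Cfsg.Agent.Lib

/-- fully ramified data for `G` inside `K`: an irreducible character `Ind ν` of `K` vanishing off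
the normal subgroup `Z`, on which it is a multiple of the linear character `lam`; a map
`F : G → K` which is an injective homomorphism modulo `Z`; arithmetic conditions. -/
structure IsFRam {G : Type*} [Group G] {K : Type*} [Group K] [Fintype K] (L : Subgroup K)
    (ν : L →* ℂˣ) (Z : Subgroup K) (lam : Z →* ℂˣ) (F : G → K) (m : ℕ) : Prop where
  irr : IsIrrCharacter K (indFun L (fun l => ((ν l : ℂˣ) : ℂ)))
  normal : Z.Normal
  central : ∀ (z : Z) (h : K), indFun L (fun l => ((ν l : ℂˣ) : ℂ)) ((z : K) * h) =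
    ((lam z : ℂˣ) : ℂ) * indFun L (fun l => ((ν l : ℂˣ) : ℂ)) h
  vanish : ∀ h : K, h ∉ Z → indFun L (fun l => ((ν l : ℂˣ) : ℂ)) h = 0
  quasi : ∀ g g' : G, (F (g * g'))⁻¹ * (F g * F g') ∈ Z
  inj : ∀ g : G, F g ∈ Z → g = 1
  primes : ∀ r : ℕ, r.Prime → r ∣ Nat.card K → r ∣ Nat.card G
  sqf : Squarefree m
  expo : ∀ z : Z, lam z ^ m = 1
  ord : ∀ r : ℕ, r.Prime → r ∣ Nat.card G → ∃ z : Z, orderOf (lam z) = r

section prod

variable {H : Type*} [Group H] {A : Type*} [CommGroup A]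

/-- `(l, a) ↦ ν l * ψ a` on `L × A ≤ H × A` -/
def prodLam (L : Subgroup H) (ν : L →* ℂˣ) (ψ : A →* ℂˣ) :
    ↥(L.prod (⊤ : Subgroup A)) →* ℂˣ where
  toFun k := ν ⟨k.1.1, (Subgroup.mem_prod.mp k.2).1⟩ * ψ k.1.2
  map_one' := by
    have h1 : (⟨(1 : ↥(L.prod (⊤ : Subgroup A))).1.1,
        (Subgroup.mem_prod.mp (1 : ↥(L.prod (⊤ : Subgroup A))).2).1⟩ : L) = 1 := Subtype.ext rfl
    rw [h1, map_one, one_mul]
    exact map_one ψ
  map_mul' a b := by
    have h1 : (⟨(a * b).1.1, (Subgroup.mem_prod.mp (a * b).2).1⟩ : L) =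
        ⟨a.1.1, (Subgroup.mem_prod.mp a.2).1⟩ * ⟨b.1.1, (Subgroup.mem_prod.mp b.2).1⟩ :=
      Subtype.ext rfl
    have h2 : (a * b).1.2 = a.1.2 * b.1.2 := rfl
    rw [h1, h2, map_mul, map_mul]
    exact mul_mul_mul_comm _ _ _ _

theorem prodLam_apply (L : Subgroup H) (ν : L →* ℂˣ) (ψ : A →* ℂˣ)
    (k : ↥(L.prod (⊤ : Subgroup A))) :
    prodLam L ν ψ k = ν ⟨k.1.1, (Subgroup.mem_prod.mp k.2).1⟩ * ψ k.1.2 := rfl

theorem indFun_prodLam [Fintype H] [Fintype A] (L : Subgroup H) (ν : L →* ℂˣ) (ψ : A →* ℂˣ)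
    (h : H) (a : A) :
    indFun (L.prod (⊤ : Subgroup A)) (fun k => ((prodLam L ν ψ k : ℂˣ) : ℂ)) (h, a) =
      indFun L (fun l => ((ν l : ℂˣ) : ℂ)) h * ((ψ a : ℂˣ) : ℂ) := by
  have hext : ∀ (y : H) (b : A),
      extendByZero (L.prod (⊤ : Subgroup A)) (fun k => ((prodLam L ν ψ k : ℂˣ) : ℂ))
        (((y, b) : H × A)⁻¹ * (h, a) * (y, b)) =
      extendByZero L (fun l => ((ν l : ℂˣ) : ℂ)) (y⁻¹ * h * y) * ((ψ a : ℂˣ) : ℂ) := by
    intro y b
    have e : ((y, b) : H × A)⁻¹ * (h, a) * (y, b) = (y⁻¹ * h * y, a) := by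
      ext
      · rfl
      · show b⁻¹ * a * b = a
        rw [mul_comm b⁻¹ a, inv_mul_cancel_right]
    rw [e]
    by_cases hm : y⁻¹ * h * y ∈ L
    · have hm' : (y⁻¹ * h * y, a) ∈ L.prod (⊤ : Subgroup A) :=
        Subgroup.mem_prod.mpr ⟨hm, Subgroup.mem_top _⟩
      rw [Helper35.ext_mem _ _ _ hm', Helper35.ext_mem _ _ _ hm, prodLam_apply, Units.val_mul]
    · have hm' : (y⁻¹ * h * y, a) ∉ L.prod (⊤ : Subgroup A) :=
        fun hc => hm (Subgroup.mem_prod.mp hc).1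
      rw [Helper35.ext_not_mem _ _ _ hm', Helper35.ext_not_mem _ _ _ hm, zero_mul]
  have hcard : (Nat.card ↥(L.prod (⊤ : Subgroup A)) : ℂ) = (Nat.card L : ℂ) * (Nat.card A : ℂ) := by
    rw [Nat.card_congr (Subgroup.prodEquiv L (⊤ : Subgroup A)).toEquiv, Nat.card_prod,
      Subgroup.card_top, Nat.cast_mul]
  have hA : (Nat.card A : ℂ) ≠ 0 := by
    exact_mod_cast (Nat.card_pos (α := A)).ne'
  have hL : (Nat.card L : ℂ) ≠ 0 := by
    exact_mod_cast (Nat.card_pos (α := L)).ne'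
  show (Nat.card ↥(L.prod (⊤ : Subgroup A)) : ℂ)⁻¹ * ∑ x : H × A,
      extendByZero (L.prod (⊤ : Subgroup A)) (fun k => ((prodLam L ν ψ k : ℂˣ) : ℂ))
        (x⁻¹ * (h, a) * x) =
    ((Nat.card L : ℂ)⁻¹ * ∑ y : H, extendByZero L (fun l => ((ν l : ℂˣ) : ℂ)) (y⁻¹ * h * y)) *
      ((ψ a : ℂˣ) : ℂ)
  rw [Fintype.sum_prod_type, hcard]
  simp only [hext, Finset.sum_const, Finset.card_univ, nsmul_eq_mul]
  rw [← Finset.mul_sum, ← Finset.sum_mul, ← Nat.card_eq_fintype_card]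
  field_simp

end prod

end Cfsg.Agent.Lib.Helper83
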