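import Mathlib
import Cfsg.Prelude.Def_Blocks
import Cfsg.Agent.Lib.Helper83.Ct1
import Cfsg.Agent.Lib.Helper83.Quot
import Cfsg.Agent.Lib.Helper83.IrrBasic

set_option autoImplicit false
set_option linter.unusedSectionVars false
set_option linter.style.haveILetI false
set_option linter.unusedVariables false

namespace Cfsg.Agent.Lib.Helper83

open scoped ComplexConjugate
open Cfsg Cfsg.Agent.Lib

section wreath

variable {H : Type*} [Group H] {A : Type*} [CommGroup A] {C : Type*} [Group C]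

/-- the subgroups `L₁ × A` of `H × A`, one for each coordinate -/
def ctH (L₁ : Subgroup H) : C → Subgroup (H × A) := fun _ => L₁.prod ⊤

/-- the linear characters `ν₁ ⊗ β q` -/
def ctLamq (L₁ : Subgroup H) (ν₁ : L₁ →* ℂˣ) (β : C →* (A →* ℂˣ)) :
    ∀ q : C, ↥(ctH (A := A) (C := C) L₁ q) →* ℂˣ := fun q => prodLam L₁ ν₁ (β q)

/-- values of the induced character of the wreath product -/
theorem ct_val [Fintype H] [Fintype A] [DecidableEq A] [Fintype C] [DecidableEq C]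
    [Fintype ((H × A) ≀ᵣ C)] (L₁ : Subgroup H) (ν₁ : L₁ →* ℂˣ) (β : C →* (A →* ℂˣ)) (c : ℂ)
    (hβ : ∀ a : A, ∑ r : C, ((β r a : ℂˣ) : ℂ) = if a = 1 then c else 0)
    (w : (H × A) ≀ᵣ C) :
    indFun (baseK (ctH (A := A) (C := C) L₁))
        (fun k => ((baseLam (ctH L₁) (ctLamq L₁ ν₁ β) k : ℂˣ) : ℂ)) w =
      if w.right = 1 then
        (if ∏ y, (w.left y).2 = 1 then c else 0) *
          (∏ y, indFun L₁ (fun l => ((ν₁ l : ℂˣ) : ℂ)) (w.left y).1) *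
          ∏ y, ((β y (w.left y).2 : ℂˣ) : ℂ)
      else 0 := by
  rw [indFun_baseK]
  by_cases hw : w.right = 1
  · rw [if_pos hw, if_pos hw]
    have h1 : ∀ r y : C, indFun (ctH (A := A) (C := C) L₁ y)
        (fun h => ((ctLamq L₁ ν₁ β y h : ℂˣ) : ℂ)) (w.left (r * y)) =
        indFun L₁ (fun l => ((ν₁ l : ℂˣ) : ℂ)) (w.left (r * y)).1 *
          ((β y (w.left (r * y)).2 : ℂˣ) : ℂ) :=
      fun r y => indFun_prodLam L₁ ν₁ (β y) _ _
    simp only [h1, Finset.prod_mul_distrib]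
    have h2 : ∀ r : C, ∏ y, indFun L₁ (fun l => ((ν₁ l : ℂˣ) : ℂ)) (w.left (r * y)).1 =
        ∏ y, indFun L₁ (fun l => ((ν₁ l : ℂˣ) : ℂ)) (w.left y).1 :=
      fun r => Fintype.prod_equiv (Equiv.mulLeft r) _ _ (fun y => rfl)
    have h3 : ∀ r : C, ∏ y, ((β y (w.left (r * y)).2 : ℂˣ) : ℂ) =
        ((β r⁻¹ (∏ y, (w.left y).2) : ℂˣ) : ℂ) * ∏ y, ((β y (w.left y).2 : ℂˣ) : ℂ) := by
      intro r
      have e : ∏ y, ((β y (w.left (r * y)).2 : ℂˣ) : ℂ) =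
          ∏ y, ((β (r⁻¹ * y) (w.left y).2 : ℂˣ) : ℂ) :=
        Fintype.prod_equiv (Equiv.mulLeft r) _ _ (fun y => by
          show _ = ((β (r⁻¹ * (r * y)) (w.left (r * y)).2 : ℂˣ) : ℂ)
          rw [inv_mul_cancel_left])
      rw [e, map_prod, Units.coe_prod, ← Finset.prod_mul_distrib]
      refine Finset.prod_congr rfl fun y _ => ?_
      rw [map_mul, MonoidHom.mul_apply, Units.val_mul]
    simp only [h2, h3]
    have h4 : ∑ r : C, ((β r⁻¹ (∏ y, (w.left y).2) : ℂˣ) : ℂ) =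
        if ∏ y, (w.left y).2 = 1 then c else 0 := by
      rw [← hβ]
      exact Fintype.sum_equiv (Equiv.inv C) _ _ (fun r => rfl)
    rw [← Finset.mul_sum, ← Finset.sum_mul, h4]
    ring
  · rw [if_neg hw, if_neg hw]

/-- the closed formula for the induced character of the wreath product -/
noncomputable def ctForm [Fintype C] [DecidableEq C] [DecidableEq A] (χ₁ : H → ℂ)
    (β : C →* (A →* ℂˣ)) (c : ℂ) (w : (H × A) ≀ᵣ C) : ℂ :=
  if w.right = 1 then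
    (if ∏ y, (w.left y).2 = 1 then c else 0) * (∏ y, χ₁ (w.left y).1) *
      ∏ y, ((β y (w.left y).2 : ℂˣ) : ℂ)
  else 0

theorem ctForm_def [Fintype C] [DecidableEq C] [DecidableEq A] (χ₁ : H → ℂ)
    (β : C →* (A →* ℂˣ)) (c : ℂ) (w : (H × A) ≀ᵣ C) :
    ctForm χ₁ β c w = if w.right = 1 then
      (if ∏ y, (w.left y).2 = 1 then c else 0) * (∏ y, χ₁ (w.left y).1) *
        ∏ y, ((β y (w.left y).2 : ℂˣ) : ℂ)
    else 0 := rfl

theorem ct_val' [Fintype H] [Fintype A] [DecidableEq A] [Fintype C] [DecidableEq C]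
    [Fintype ((H × A) ≀ᵣ C)] (L₁ : Subgroup H) (ν₁ : L₁ →* ℂˣ) (β : C →* (A →* ℂˣ)) (c : ℂ)
    (hβ : ∀ a : A, ∑ r : C, ((β r a : ℂˣ) : ℂ) = if a = 1 then c else 0) :
    indFun (baseK (ctH (A := A) (C := C) L₁))
        (fun k => ((baseLam (ctH L₁) (ctLamq L₁ ν₁ β) k : ℂˣ) : ℂ)) =
      ctForm (indFun L₁ (fun l => ((ν₁ l : ℂˣ) : ℂ))) β c := by
  funext w
  exact ct_val L₁ ν₁ β c hβ w

/-- the subgroup `Z` of the wreath product -/
def ctZ [Fintype C] (Z₁ : Subgroup H) : Subgroup ((H × A) ≀ᵣ C) where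
  carrier := {w | w.right = 1 ∧ (∀ q, (w.left q).1 ∈ Z₁) ∧ ∏ q, (w.left q).2 = 1}
  one_mem' := by
    refine ⟨rfl, fun q => Z₁.one_mem, ?_⟩
    exact Finset.prod_eq_one (fun q _ => rfl)
  mul_mem' := by
    rintro a b ⟨ha1, ha2, ha3⟩ ⟨hb1, hb2, hb3⟩
    have hl : ∀ q, (a * b).left q = a.left q * b.left q := by
      intro q
      rw [RegularWreathProduct.mul_left]
      show a.left q * b.left (a.right⁻¹ * q) = _
      rw [ha1, inv_one, one_mul]
    refine ⟨by rw [RegularWreathProduct.mul_right, ha1, hb1, one_mul], fun q => ?_, ?_⟩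
    · rw [hl]; exact Z₁.mul_mem (ha2 q) (hb2 q)
    · simp only [hl, Prod.snd_mul, Finset.prod_mul_distrib, ha3, hb3, one_mul]
  inv_mem' := by
    rintro a ⟨ha1, ha2, ha3⟩
    have hl : ∀ q, (a⁻¹).left q = (a.left q)⁻¹ := by
      intro q
      rw [RegularWreathProduct.inv_left]
      show (a.left (a.right * q))⁻¹ = _
      rw [ha1, one_mul]
    refine ⟨by rw [RegularWreathProduct.inv_right, ha1, inv_one], fun q => ?_, ?_⟩
    · rw [hl]; exact Z₁.inv_mem (ha2 q)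
    · simp only [hl, Prod.snd_inv, Finset.prod_inv_distrib, ha3, inv_one]

theorem mem_ctZ [Fintype C] (Z₁ : Subgroup H) (w : (H × A) ≀ᵣ C) :
    w ∈ ctZ (A := A) (C := C) Z₁ ↔
      w.right = 1 ∧ (∀ q, (w.left q).1 ∈ Z₁) ∧ ∏ q, (w.left q).2 = 1 := Iff.rfl

theorem ctZ_mul_left [Fintype C] (Z₁ : Subgroup H) (a : (H × A) ≀ᵣ C) (ha : a.right = 1)
    (b : (H × A) ≀ᵣ C) (q : C) : (a * b).left q = a.left q * b.left q := by
  rw [RegularWreathProduct.mul_left]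
  show a.left q * b.left (a.right⁻¹ * q) = _
  rw [ha, inv_one, one_mul]

/-- the linear character `lam` of `Z` -/
noncomputable def ctLam [Fintype C] (Z₁ : Subgroup H) (lam₁ : Z₁ →* ℂˣ)
    (β : C →* (A →* ℂˣ)) : ↥(ctZ (A := A) (C := C) Z₁) →* ℂˣ :=
  MonoidHom.mk'
    (fun z => (∏ q, lam₁ ⟨(z.1.left q).1, z.2.2.1 q⟩) * ∏ q, β q (z.1.left q).2) (by
    intro a b
    have hl : ∀ q, (a * b).1.left q = a.1.left q * b.1.left q :=
      fun q => ctZ_mul_left Z₁ a.1 a.2.1 b.1 q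
    have h1 : ∀ q, (⟨((a * b).1.left q).1, (a * b).2.2.1 q⟩ : Z₁) =
        ⟨(a.1.left q).1, a.2.2.1 q⟩ * ⟨(b.1.left q).1, b.2.2.1 q⟩ :=
      fun q => Subtype.ext (by
        show ((a * b).1.left q).1 = (a.1.left q).1 * (b.1.left q).1
        rw [hl]; rfl)
    have h2 : ∀ q, ((a * b).1.left q).2 = (a.1.left q).2 * (b.1.left q).2 :=
      fun q => by rw [hl]; rfl
    simp only [h1, h2, map_mul, Finset.prod_mul_distrib]
    exact mul_mul_mul_comm _ _ _ _)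

theorem ctLam_apply [Fintype C] (Z₁ : Subgroup H) (lam₁ : Z₁ →* ℂˣ)
    (β : C →* (A →* ℂˣ)) (z : ↥(ctZ (A := A) (C := C) Z₁)) :
    ctLam Z₁ lam₁ β z =
      (∏ q, lam₁ ⟨(z.1.left q).1, z.2.2.1 q⟩) * ∏ q, β q (z.1.left q).2 := rfl

/-- the quasi-homomorphism `G → (H × A) ≀ᵣ (G ⧸ N)` -/
noncomputable def ctF {G : Type*} [Group G] (N : Subgroup G) [N.Normal] (F₁ : N → H) :
    G → (H × A) ≀ᵣ (G ⧸ N) :=
  fun g => ⟨fun q => (F₁ (kkC N g q), 1), (g : G ⧸ N)⟩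

end wreath

section kernel

variable {K : Type*} [Group K] [Finite K]

/-- a power of `z ∈ Z` lies in the kernel of `θ` iff the same power of `lam z` is trivial -/
theorem fin_a3 (θ : IrrCharacter K) (Z : Subgroup K) (lam : Z →* ℂˣ)
    (hcen : ∀ (z : Z) (h : K), (θ : K → ℂ) ((z : K) * h) = ((lam z : ℂˣ) : ℂ) * (θ : K → ℂ) h)
    (z : Z) (k : ℕ) : ((z : K) ^ k ∈ irrKer θ) ↔ lam z ^ k = 1 := by
  rw [mem_irrKer]
  have h1 : (θ : K → ℂ) ((z : K) ^ k) = (((lam z) ^ k : ℂˣ) : ℂ) * (θ : K → ℂ) 1 := by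
    have := hcen (z ^ k) 1
    rw [mul_one, map_pow] at this
    exact this
  have h0 : (θ : K → ℂ) 1 ≠ 0 := irr_one_ne_zero θ.2
  rw [h1]
  constructor
  · intro h
    have h2 : (((lam z) ^ k : ℂˣ) : ℂ) = 1 := by
      have h3 : ((((lam z) ^ k : ℂˣ) : ℂ) - 1) * (θ : K → ℂ) 1 = 0 := by
        rw [sub_mul, one_mul, h, sub_self]
      rcases mul_eq_zero.mp h3 with h4 | h4
      · exact sub_eq_zero.mp h4
      · exact absurd h4 h0
    exact Units.ext h2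
  · intro h
    rw [h, Units.val_one, one_mul]

end kernel

end Cfsg.Agent.Lib.Helper83
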