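import Cfsg.Agent.Lib.Helper47.S76Defs

/-!
# S5976 (helper47's S76 project): piece PAD

Embedding `Sp_{2n} ⊆ Sp_{2d}` (`n ≤ d`) as `Y₀ ⊕ 1`.
-/

set_option autoImplicit false
set_option linter.style.haveILetI false
set_option linter.unusedVariables false

universe u

namespace Cfsg.Agent.Lib.Helper83.S76PAD

open Matrix Polynomial Cfsg.Agent.Lib.Helper47 Cfsg.Agent.Lib.Helper47.S76

variable {F : Type u} [Field F]

/-- matrix form of skewness -/
theorem isSkew_iff (d : ℕ) (T : Matrix (Fin d ⊕ Fin d) (Fin d ⊕ Fin d) F) :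
    IsSkew d T ↔ Tᵀ * Matrix.J (Fin d) F = -(Matrix.J (Fin d) F * T) := by
  have key : ∀ u v : Fin d ⊕ Fin d → F, spForm (Fin d) F (T *ᵥ u) v =
      u ⬝ᵥ ((Tᵀ * Matrix.J (Fin d) F) *ᵥ v) := by
    intro u v
    unfold spForm
    rw [← Matrix.vecMul_transpose, ← Matrix.dotProduct_mulVec, Matrix.mulVec_mulVec]
  have key2 : ∀ u v : Fin d ⊕ Fin d → F, - spForm (Fin d) F u (T *ᵥ v) =
      u ⬝ᵥ ((-(Matrix.J (Fin d) F * T)) *ᵥ v) := by
    intro u v
    unfold spForm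
    rw [Matrix.neg_mulVec, dotProduct_neg, Matrix.mulVec_mulVec]
  unfold IsSkew
  constructor
  · intro h
    ext i j
    have h1 := h (Pi.single i 1) (Pi.single j 1)
    rw [key, key2] at h1
    simpa using h1
  · intro h u v
    rw [key, key2, h]

/-- the index equivalence -/
def padEquiv (n m : ℕ) : (Fin n ⊕ Fin n) ⊕ (Fin m ⊕ Fin m) ≃ Fin (n + m) ⊕ Fin (n + m) :=
  (Equiv.sumSumSumComm (Fin n) (Fin n) (Fin m) (Fin m)).trans
    (Equiv.sumCongr finSumFinEquiv finSumFinEquiv)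

theorem pad_J (n m : ℕ) :
    (Matrix.J (Fin (n + m)) F).submatrix (padEquiv n m) (padEquiv n m) =
      fromBlocks (Matrix.J (Fin n) F) 0 0 (Matrix.J (Fin m) F) := by
  ext i j
  rcases i with (i | i) | (i | i) <;> rcases j with (j | j) | (j | j) <;>
    simp [padEquiv, Matrix.J, Matrix.one_apply]
  all_goals
    intro h
    have h' := congrArg Fin.val h
    simp at h'
    omega

-- PIECE PAD
theorem pad (n d : ℕ) (hnd : n ≤ d) (hn : 1 ≤ n)
    (Y₀ : Matrix (Fin n ⊕ Fin n) (Fin n ⊕ Fin n) F)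
    (hY₀ : Y₀ ∈ Matrix.symplecticGroup (Fin n) F) (hfix : ∀ v, Y₀ *ᵥ v = v → v = 0) :
    ∃ Y : Matrix (Fin d ⊕ Fin d) (Fin d ⊕ Fin d) F, Y ∈ Matrix.symplecticGroup (Fin d) F ∧
      Y ≠ 1 ∧ (∀ k : ℕ, Y₀ ^ k = 1 → Y ^ k = 1) ∧
      ∀ (T : Matrix (Fin d ⊕ Fin d) (Fin d ⊕ Fin d) F) (δ : F), T * Y = Y * T → IsSkew d T →
        T * T = δ • (1 : Matrix (Fin d ⊕ Fin d) (Fin d ⊕ Fin d) F) →
        ∃ T₀ : Matrix (Fin n ⊕ Fin n) (Fin n ⊕ Fin n) F, T₀ * Y₀ = Y₀ * T₀ ∧ IsSkew n T₀ ∧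
          T₀ * T₀ = δ • (1 : Matrix (Fin n ⊕ Fin n) (Fin n ⊕ Fin n) F) := by
  obtain ⟨m, rfl⟩ := Nat.exists_eq_add_of_le hnd
  set eq := padEquiv n m with heq
  -- `Y₀ - 1` is invertible
  have hU : IsUnit (Y₀ - 1) := by
    rw [← Matrix.mulVec_injective_iff_isUnit]
    intro v w hvw
    have h1 : (Y₀ - 1) *ᵥ (v - w) = 0 := by rw [Matrix.mulVec_sub, hvw, sub_self]
    rw [Matrix.sub_mulVec, Matrix.one_mulVec] at h1
    exact sub_eq_zero.mp (hfix _ (sub_eq_zero.mp h1))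
  set Y' : Matrix ((Fin n ⊕ Fin n) ⊕ (Fin m ⊕ Fin m)) ((Fin n ⊕ Fin n) ⊕ (Fin m ⊕ Fin m)) F :=
    fromBlocks Y₀ 0 0 1 with hY'
  set J' : Matrix ((Fin n ⊕ Fin n) ⊕ (Fin m ⊕ Fin m)) ((Fin n ⊕ Fin n) ⊕ (Fin m ⊕ Fin m)) F :=
    fromBlocks (Matrix.J (Fin n) F) 0 0 (Matrix.J (Fin m) F) with hJ'
  have hJ : Matrix.J (Fin (n + m)) F = J'.submatrix eq.symm eq.symm := by
    rw [hJ', ← pad_J n m, Matrix.submatrix_submatrix]
    ext i j
    simp [heq]
  have hsub : ∀ M : Matrix ((Fin n ⊕ Fin n) ⊕ (Fin m ⊕ Fin m))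
      ((Fin n ⊕ Fin n) ⊕ (Fin m ⊕ Fin m)) F,
      (M.submatrix eq.symm eq.symm).submatrix eq eq = M := by
    intro M
    rw [Matrix.submatrix_submatrix]
    simp
  refine ⟨Y'.submatrix eq.symm eq.symm, ?_, ?_, ?_, ?_⟩
  · rw [SymplecticGroup.mem_iff, hJ, Matrix.transpose_submatrix,
      Matrix.submatrix_mul_equiv, Matrix.submatrix_mul_equiv]
    congr 1
    rw [hY', hJ', Matrix.fromBlocks_transpose, Matrix.fromBlocks_multiply,
      Matrix.fromBlocks_multiply]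
    have h1 := SymplecticGroup.mem_iff.mp hY₀
    simp [h1]
  · intro h
    have h1 : Y' = 1 := by
      have h2 : (Y'.submatrix eq.symm eq.symm).submatrix eq eq =
          (1 : Matrix (Fin (n + m) ⊕ Fin (n + m)) (Fin (n + m) ⊕ Fin (n + m)) F).submatrix eq eq :=
        congrArg (fun M => M.submatrix eq eq) h
      rw [hsub] at h2
      rw [h2]
      simp
    have h3 : Y₀ = 1 := by
      have h4 := congrArg Matrix.toBlocks₁₁ h1
      rw [hY', Matrix.toBlocks_fromBlocks₁₁] at h4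
      rw [h4]
      ext i j
      simp [Matrix.toBlocks₁₁, Matrix.one_apply]
    have h5 := hfix (fun _ => 1) (by rw [h3, Matrix.one_mulVec])
    have h6 := congrFun h5 (Sum.inl ⟨0, hn⟩)
    simp at h6
  · intro k hk
    have h1 : ∀ k : ℕ, (Y'.submatrix eq.symm eq.symm) ^ k =
        (fromBlocks (Y₀ ^ k) 0 0 1 : Matrix ((Fin n ⊕ Fin n) ⊕ (Fin m ⊕ Fin m))
          ((Fin n ⊕ Fin n) ⊕ (Fin m ⊕ Fin m)) F).submatrix eq.symm eq.symm := by
      intro k
      induction k with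
      | zero =>
        rw [pow_zero, pow_zero, Matrix.fromBlocks_one]
        simp
      | succ k ih =>
        rw [pow_succ, ih, Matrix.submatrix_mul_equiv, hY', Matrix.fromBlocks_multiply]
        simp [pow_succ]
    rw [h1, hk, Matrix.fromBlocks_one]
    simp
  · intro T δ hTY hskew hT2
    set T' := T.submatrix eq eq with hT'
    have hTsub : T = T'.submatrix eq.symm eq.symm := by
      rw [hT', Matrix.submatrix_submatrix]
      simp
    have hblk : T' = fromBlocks T'.toBlocks₁₁ T'.toBlocks₁₂ T'.toBlocks₂₁ T'.toBlocks₂₂ :=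
      (Matrix.fromBlocks_toBlocks T').symm
    set T11 := T'.toBlocks₁₁
    set T12 := T'.toBlocks₁₂
    set T21 := T'.toBlocks₂₁
    set T22 := T'.toBlocks₂₂
    -- commutation
    have hc : T' * Y' = Y' * T' := by
      have h1 : (T * Y'.submatrix eq.symm eq.symm).submatrix eq eq =
          (Y'.submatrix eq.symm eq.symm * T).submatrix eq eq :=
        congrArg (fun M => M.submatrix eq eq) hTY
      rw [hTsub, Matrix.submatrix_mul_equiv, Matrix.submatrix_mul_equiv, hsub, hsub] at h1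
      exact h1
    rw [hblk, hY', Matrix.fromBlocks_multiply, Matrix.fromBlocks_multiply,
      Matrix.fromBlocks_inj] at hc
    obtain ⟨hc11, hc12, hc21, -⟩ := hc
    simp only [Matrix.mul_zero, add_zero, Matrix.zero_mul, zero_add, Matrix.mul_one, Matrix.one_mul] at hc11 hc12 hc21
    have h12 : T12 = 0 := by
      have h1 : (Y₀ - 1) * T12 = 0 := by
        rw [Matrix.sub_mul, Matrix.one_mul, ← hc12, sub_self]
      obtain ⟨u, hu⟩ := hU
      have h2 : (↑u⁻¹ : Matrix (Fin n ⊕ Fin n) (Fin n ⊕ Fin n) F) * ((Y₀ - 1) * T12) = T12 := by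
        rw [← Matrix.mul_assoc, ← hu, Units.inv_mul, Matrix.one_mul]
      rw [← h2, h1, Matrix.mul_zero]
    refine ⟨T11, hc11, ?_, ?_⟩
    · rw [isSkew_iff]
      have h1 := (isSkew_iff (n + m) T).mp hskew
      have h2 : (Tᵀ * Matrix.J (Fin (n + m)) F).submatrix eq eq =
          -((Matrix.J (Fin (n + m)) F * T).submatrix eq eq) := by
        rw [h1]
        rfl
      rw [hTsub, hJ, Matrix.transpose_submatrix, Matrix.submatrix_mul_equiv,
        Matrix.submatrix_mul_equiv, hsub, hsub] at h2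
      rw [hblk, hJ', Matrix.fromBlocks_transpose, Matrix.fromBlocks_multiply,
        Matrix.fromBlocks_multiply, Matrix.fromBlocks_neg, Matrix.fromBlocks_inj] at h2
      obtain ⟨h11, -, -, -⟩ := h2
      simpa using h11
    · have h1 : (T * T).submatrix eq eq =
          (δ • (1 : Matrix (Fin (n + m) ⊕ Fin (n + m)) (Fin (n + m) ⊕ Fin (n + m)) F)).submatrix
            eq eq := congrArg (fun M => M.submatrix eq eq) hT2
      rw [hTsub, Matrix.submatrix_mul_equiv, hsub] at h1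
      have h2 : (δ • (1 : Matrix (Fin (n + m) ⊕ Fin (n + m)) (Fin (n + m) ⊕ Fin (n + m)) F)).submatrix
          eq eq = fromBlocks (δ • (1 : Matrix (Fin n ⊕ Fin n) (Fin n ⊕ Fin n) F)) 0 0
            (δ • (1 : Matrix (Fin m ⊕ Fin m) (Fin m ⊕ Fin m) F)) := by
        have h3 : (δ • (1 : Matrix (Fin (n + m) ⊕ Fin (n + m)) (Fin (n + m) ⊕ Fin (n + m))
            F)).submatrix eq eq = δ • ((1 : Matrix (Fin (n + m) ⊕ Fin (n + m))
              (Fin (n + m) ⊕ Fin (n + m)) F).submatrix eq eq) := rfl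
        rw [h3, Matrix.submatrix_one_equiv, ← Matrix.fromBlocks_one, Matrix.fromBlocks_smul,
          smul_zero, smul_zero]
      rw [h2, hblk, Matrix.fromBlocks_multiply, Matrix.fromBlocks_inj] at h1
      obtain ⟨h11, -, -, -⟩ := h1
      rw [h12, Matrix.zero_mul, add_zero] at h11
      exact h11

end Cfsg.Agent.Lib.Helper83.S76PAD
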