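import Mathlib
import Cfsg.Agent.Lib.Helper6.PSLCard
import Cfsg.Agent.Lib.Helper31.PComp
import Cfsg.Agent.Lib.Helper65.AffSL2

/-!
# Perfect groups of order `< p ^ 3` (reduction of S4701 to Brauer–Reynolds, S0999)

* `BRConcl S p`: the conclusion of the Brauer–Reynolds theorem for the group `S`;
* `card_bound`: `BRConcl S p → p ^ 3 ≤ 3 * |S|`;
* `false_of_normal_prime`: a perfect group has no normal Sylow subgroup of prime order;
* `exists_simple_quotient`: a nontrivial finite group has a simple quotient;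
* `perfect_reduction`: a perfect group `G` with `|G| < p ^ 3`, `p ∣ |G|` and a non-normal Sylow
  `p`-subgroup has a normal subgroup `M` of order `≤ 2` with `G ⧸ M` simple non-cyclic of order
  divisible by `p` (given the Brauer–Reynolds bound for simple groups);
* `perfect_main`: the statement of S4701 from the statement of S0999.
-/

set_option autoImplicit false
set_option linter.unusedSectionVars false
set_option linter.style.haveILetI false
set_option linter.unusedVariables false

namespace Cfsg.Agent.Lib.Helper83.BRPerf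

open Cfsg Cfsg.Agent.Lib

universe u

/-- the conclusion of the Brauer–Reynolds theorem (S0999) -/
def BRConcl (S : Type u) [Group S] (p : ℕ) : Prop :=
  (∃ (F : Type) (_ : Field F) (_ : Fintype F), Fintype.card F = p ∧ 3 < p ∧
      Nonempty (S ≃* Matrix.ProjectiveSpecialLinearGroup (Fin 2) F)) ∨
  (∃ (m : ℕ) (F : Type) (_ : Field F) (_ : Fintype F), Fintype.card F = 2 ^ m ∧
      p = 2 ^ m + 1 ∧ 3 < p ∧
      Nonempty (S ≃* Matrix.ProjectiveSpecialLinearGroup (Fin 2) F))

/-- the order of `PSL(2, q)` in product form -/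
theorem card_psl2 {F : Type*} [Field F] [Fintype F] {q : ℕ} (hF : Fintype.card F = q) :
    Nat.gcd 2 (q - 1) * ((q - 1) *
      Nat.card (Matrix.ProjectiveSpecialLinearGroup (Fin 2) F)) = (q ^ 2 - 1) * (q ^ 2 - q) := by
  have h := Helper6.card_psl hF 2 (by norm_num)
  rw [Fin.prod_univ_two] at h
  simpa using h

theorem card_bound {S : Type u} [Group S] [Finite S] {p : ℕ} (h : BRConcl S p) :
    p ^ 3 ≤ 3 * Nat.card S := by
  rcases h with ⟨F, hF1, hF2, hc, hp3, ⟨f⟩⟩ | ⟨m, F, hF1, hF2, hc, hpm, hp3, ⟨f⟩⟩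
  · rw [Nat.card_congr f.toEquiv]
    have h1 := card_psl2 hc
    set N := Nat.card (Matrix.ProjectiveSpecialLinearGroup (Fin 2) F) with hN
    obtain ⟨k, rfl⟩ : ∃ k, p = k + 4 := ⟨p - 4, by omega⟩
    have hg : Nat.gcd 2 (k + 4 - 1) ≤ 2 := Nat.le_of_dvd (by norm_num) (Nat.gcd_dvd_left _ _)
    have e1 : k + 4 - 1 = k + 3 := by omega
    have e2 : (k + 4) ^ 2 - 1 = (k + 3) * (k + 5) := by
      have : (k + 4) ^ 2 = (k + 3) * (k + 5) + 1 := by ring
      omega
    have e3 : (k + 4) ^ 2 - (k + 4) = (k + 4) * (k + 3) := by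
      have : (k + 4) ^ 2 = (k + 4) * (k + 3) + (k + 4) := by ring
      omega
    rw [e1, e2, e3] at h1
    rw [e1] at hg
    have h2 : (k + 3) * ((k + 3) * (k + 5) * (k + 4)) ≤ (k + 3) * (2 * N) := by
      calc (k + 3) * ((k + 3) * (k + 5) * (k + 4))
          = Nat.gcd 2 (k + 3) * ((k + 3) * N) := by rw [h1]; ring
        _ ≤ 2 * ((k + 3) * N) := Nat.mul_le_mul_right _ hg
        _ = (k + 3) * (2 * N) := by ring
    have h3 : (k + 3) * (k + 5) * (k + 4) ≤ 2 * N := Nat.le_of_mul_le_mul_left h2 (by omega)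
    have h4 : 3 * ((k + 3) * (k + 5) * (k + 4)) =
        2 * (k + 4) ^ 3 + (k + 4) * (k ^ 2 + 8 * k + 13) := by ring
    have h5 : 0 ≤ (k + 4) * (k ^ 2 + 8 * k + 13) := Nat.zero_le _
    linarith
  · rw [Nat.card_congr f.toEquiv]
    have h1 := card_psl2 hc
    set N := Nat.card (Matrix.ProjectiveSpecialLinearGroup (Fin 2) F) with hN
    have hq3 : 3 ≤ 2 ^ m := by omega
    have hm : 1 ≤ m := by
      rcases Nat.eq_zero_or_pos m with h0 | h0
      · rw [h0] at hq3
        norm_num at hq3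
      · exact h0
    obtain ⟨j, hj⟩ : ∃ j, 2 ^ m = 2 * j := by
      obtain ⟨m', rfl⟩ : ∃ m', m = m' + 1 := ⟨m - 1, by omega⟩
      exact ⟨2 ^ m', by ring⟩
    have hg : Nat.gcd 2 (2 ^ m - 1) = 1 := by
      have hnd : ¬ 2 ∣ 2 ^ m - 1 := by omega
      exact (Nat.Prime.coprime_iff_not_dvd Nat.prime_two).mpr hnd
    rw [hg, one_mul] at h1
    obtain ⟨t, ht⟩ : ∃ t, 2 ^ m = t + 3 := ⟨2 ^ m - 3, by omega⟩
    rw [ht] at h1
    have e1 : t + 3 - 1 = t + 2 := by omega
    have e2 : (t + 3) ^ 2 - 1 = (t + 2) * (t + 4) := by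
      have : (t + 3) ^ 2 = (t + 2) * (t + 4) + 1 := by ring
      omega
    have e3 : (t + 3) ^ 2 - (t + 3) = (t + 3) * (t + 2) := by
      have : (t + 3) ^ 2 = (t + 3) * (t + 2) + (t + 3) := by ring
      omega
    rw [e1, e2, e3] at h1
    have h2 : (t + 2) * N = (t + 2) * ((t + 4) * (t + 3) * (t + 2)) := by rw [h1]; ring
    have h3 : N = (t + 4) * (t + 3) * (t + 2) := Nat.eq_of_mul_eq_mul_left (by omega) h2
    have hp : p = t + 4 := by omega
    rw [hp, h3]
    have h4 : 3 * ((t + 4) * (t + 3) * (t + 2)) =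
        (t + 4) ^ 3 + (t + 4) * (2 * t ^ 2 + 7 * t + 2) := by ring
    have h5 : 0 ≤ (t + 4) * (2 * t ^ 2 + 7 * t + 2) := Nat.zero_le _
    linarith

/-- a perfect group has no normal Sylow subgroup of prime order -/
theorem false_of_normal_prime {H : Type*} [Group H] [Finite H] (hperf : commutator H = ⊤) {p : ℕ}
    [Fact p.Prime] (Q : Subgroup H) [hQn : Q.Normal] (hQ : Nat.card Q = p)
    (hp2 : ¬ p ^ 2 ∣ Nat.card H) : False := by
  have hp : p.Prime := Fact.out
  haveI : Group.IsPerfect H := ⟨hperf⟩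
  haveI : IsCyclic Q := isCyclic_of_prime_card hQ
  have hcen : Q ≤ Subgroup.center H := by
    let φ : H →* MulAut Q := MulAut.conjNormal
    let e := IsCyclic.mulAutMulEquiv Q
    have hker : φ.ker = ⊤ := by
      rw [eq_top_iff, ← hperf, commutator_def, Subgroup.commutator_le]
      intro g₁ _ g₂ _
      rw [MonoidHom.mem_ker, map_commutatorElement]
      apply e.injective
      rw [map_commutatorElement, map_one, commutatorElement_eq_one_iff_mul_comm]
      exact mul_comm _ _
    intro q hq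
    rw [Subgroup.mem_center_iff]
    intro h
    have h1 : φ h = 1 := by
      have h0 : h ∈ φ.ker := by rw [hker]; trivial
      exact h0
    have h2 : ((φ h ⟨q, hq⟩ : Q) : H) = q := by rw [h1]; rfl
    rw [MulAut.conjNormal_apply] at h2
    calc h * q = h * q * h⁻¹ * h := by group
      _ = q * h := by rw [h2]
  have hdvd : p ∣ Nat.card H := hQ ▸ Subgroup.card_subgroup_dvd_card Q
  have hfac : (Nat.card H).factorization p = 1 := by
    have h1 : 1 ≤ (Nat.card H).factorization p :=
      (hp.dvd_iff_one_le_factorization Nat.card_pos.ne').mp hdvd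
    have h2 : ¬ 2 ≤ (Nat.card H).factorization p :=
      fun h => hp2 ((hp.pow_dvd_iff_le_factorization Nat.card_pos.ne').mpr h)
    omega
  let S : Sylow p H := Sylow.ofCard Q (by rw [hQ, hfac, pow_one])
  have hS := Helper31.sylow_eq_bot_of_le_center S (by rw [Sylow.coe_ofCard]; exact hcen)
  rw [Sylow.coe_ofCard] at hS
  rw [hS, Subgroup.card_bot] at hQ
  exact hp.one_lt.ne hQ

/-- a nontrivial finite group has a simple quotient -/
theorem exists_simple_quotient (L : Type*) [Group L] [Finite L] [Nontrivial L] :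
    ∃ M : Subgroup L, ∃ _ : M.Normal, IsSimpleGroup (L ⧸ M) := by
  classical
  let 𝒮 : Set (Subgroup L) := {M | M.Normal ∧ M ≠ ⊤}
  have hfin : 𝒮.Finite := Set.toFinite _
  have hne : 𝒮.Nonempty := ⟨⊥, Subgroup.normal_bot, bot_ne_top⟩
  obtain ⟨M, ⟨hMn, hMtop⟩, hmax⟩ := hfin.exists_maximal hne
  refine ⟨M, hMn, ?_⟩
  haveI := hMn
  have hnt : Nontrivial (L ⧸ M) := by
    rw [← Finite.one_lt_card_iff_nontrivial, ← Subgroup.index_eq_card]
    have h1 : M.index ≠ 1 := fun h => hMtop (Subgroup.index_eq_one.mp h)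
    have h2 : M.index ≠ 0 := Subgroup.index_ne_zero_of_finite
    omega
  refine { exists_pair_ne := hnt.exists_pair_ne, eq_bot_or_eq_top_of_normal := ?_ }
  intro H hH
  let K := H.comap (QuotientGroup.mk' M)
  have hKn : K.Normal := hH.comap _
  have hMK : M ≤ K := by
    intro x hx
    show (QuotientGroup.mk' M x) ∈ H
    rw [QuotientGroup.mk'_apply, (QuotientGroup.eq_one_iff x).mpr hx]
    exact H.one_mem
  by_cases hK : K = ⊤
  · right
    rw [eq_top_iff]
    intro y _
    obtain ⟨x, rfl⟩ := QuotientGroup.mk'_surjective M y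
    have h1 : x ∈ K := by rw [hK]; trivial
    exact h1
  · left
    have hKM : K ≤ M := hmax ⟨hKn, hK⟩ hMK
    rw [eq_bot_iff]
    intro y hy
    obtain ⟨x, rfl⟩ := QuotientGroup.mk'_surjective M y
    have h1 : x ∈ M := hKM hy
    rw [Subgroup.mem_bot, QuotientGroup.mk'_apply, QuotientGroup.eq_one_iff]
    exact h1

/-- a non-normal Sylow `p`-subgroup of a group of order `< p ^ 3` has order `p` -/
theorem sylow_card_eq {G : Type*} [Group G] [Finite G] (p : ℕ) [Fact p.Prime]
    (hdvd : p ∣ Nat.card G) (hbig : Nat.card G < p ^ 3) (P : Sylow p G)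
    (hP : ¬ (P : Subgroup G).Normal) : Nat.card P = p := by
  have hp : p.Prime := Fact.out
  have h1 : Nat.card (Sylow p G) ≡ 1 [MOD p] := card_sylow_modEq_one p G
  have hne1 : Nat.card (Sylow p G) ≠ 1 := by
    intro h
    haveI : Subsingleton (Sylow p G) := (Nat.card_eq_one_iff_unique.mp h).1
    exact hP (Sylow.normal_of_subsingleton P)
  have hpos : 0 < Nat.card (Sylow p G) := Nat.card_pos
  have hge : p + 1 ≤ Nat.card (Sylow p G) := by
    have h2 : p ∣ Nat.card (Sylow p G) - 1 := (Nat.modEq_iff_dvd' (by omega)).mp h1.symm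
    have h3 := Nat.le_of_dvd (by omega) h2
    omega
  have h3 : Nat.card (Sylow p G) = (Subgroup.normalizer ((P : Subgroup G) : Set G)).index :=
    Sylow.card_eq_index_normalizer P
  have h4 := Subgroup.card_mul_index (Subgroup.normalizer ((P : Subgroup G) : Set G))
  have h5 : Nat.card P ≤ Nat.card (Subgroup.normalizer ((P : Subgroup G) : Set G)) :=
    Subgroup.card_le_of_le Subgroup.le_normalizer
  have h6 := P.card_eq_multiplicity
  have hk1 : 1 ≤ (Nat.card G).factorization p :=
    (hp.dvd_iff_one_le_factorization Nat.card_pos.ne').mp hdvd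
  by_contra hne
  have hk2 : 2 ≤ (Nat.card G).factorization p := by
    by_contra hlt
    have h7 : (Nat.card G).factorization p = 1 := by omega
    rw [h7, pow_one] at h6
    exact hne h6
  have h7 : p ^ 2 ≤ Nat.card P := by
    rw [h6]
    exact Nat.pow_le_pow_right hp.pos hk2
  have h8 : p ^ 2 * (p + 1) ≤ Nat.card G := by
    rw [← h4, ← h3]
    exact Nat.mul_le_mul (h7.trans h5) hge
  have h9 : p ^ 3 < p ^ 2 * (p + 1) := by
    have : 0 < p ^ 2 := pow_pos hp.pos 2
    nlinarith
  omega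

/-- an element of order dividing `p` lies in every normal subgroup of index prime to `p` -/
theorem mem_of_pow_eq_one {Γ : Type*} [Group Γ] [Finite Γ] {p : ℕ} (hp : p.Prime)
    (M : Subgroup Γ) [M.Normal] (hnd : ¬ p ∣ Nat.card (Γ ⧸ M)) (x : Γ) (hx : x ^ p = 1) :
    x ∈ M := by
  have hcop : Nat.Coprime p (Nat.card (Γ ⧸ M)) := (Nat.Prime.coprime_iff_not_dvd hp).mpr hnd
  have h1 : (x : Γ ⧸ M) ^ p = 1 := by
    rw [← QuotientGroup.mk_pow, hx]
    rfl
  have h2 : orderOf (x : Γ ⧸ M) ∣ p := orderOf_dvd_of_pow_eq_one h1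
  have h3 : orderOf (x : Γ ⧸ M) ∣ Nat.card (Γ ⧸ M) := orderOf_dvd_natCard _
  have h4 : orderOf (x : Γ ⧸ M) = 1 := Nat.eq_one_of_dvd_coprimes hcop h2 h3
  exact (QuotientGroup.eq_one_iff x).mp (orderOf_eq_one_iff.mp h4)

/-- a nontrivial perfect group is not cyclic -/
theorem not_cyclic_of_perfect {H : Type*} [Group H] [Nontrivial H] (hperf : commutator H = ⊤) :
    ¬ IsCyclic H := by
  intro hcyc
  haveI : Group.IsPerfect H := ⟨hperf⟩
  haveI : IsMulCommutative H :=
    ⟨⟨fun a b => (IsCyclic.commGroup (α := H)).mul_comm a b⟩⟩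
  exact Group.IsPerfect.not_isMulCommutative H inferInstance

/-- a quotient of a perfect group is perfect -/
theorem perfect_quotient {G : Type*} [Group G] (hperf : commutator G = ⊤) (K : Subgroup G)
    [K.Normal] : commutator (G ⧸ K) = ⊤ := by
  haveI : Group.IsPerfect G := ⟨hperf⟩
  exact Group.IsPerfect.commutator_eq_top

/-- the reduction: a perfect group of order `< p ^ 3` with a non-normal Sylow `p`-subgroup is
generated by its Sylow `p`-subgroups -/
theorem normalClosure_eq_top {G : Type u} [Group G] [Finite G] (hperf : commutator G = ⊤) (p : ℕ)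
    [Fact p.Prime] (hdvd : p ∣ Nat.card G) (hbig : Nat.card G < p ^ 3) (P : Sylow p G)
    (hP : ¬ (P : Subgroup G).Normal)
    (hBR : ∀ (S : Type u) [Group S] [Finite S] [IsSimpleGroup S], ¬ IsCyclic S →
      p ∣ Nat.card S → Nat.card S < p ^ 3 → p ^ 3 ≤ 3 * Nat.card S) :
    Subgroup.normalClosure ((P : Subgroup G) : Set G) = ⊤ := by
  classical
  have hp : p.Prime := Fact.out
  have hcardP : Nat.card P = p := sylow_card_eq p hdvd hbig P hP
  have hp2 : ¬ p ^ 2 ∣ Nat.card G := by
    intro h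
    have h1 : 2 ≤ (Nat.card G).factorization p :=
      (hp.pow_dvd_iff_le_factorization Nat.card_pos.ne').mp h
    have h2 := P.card_eq_multiplicity
    rw [hcardP] at h2
    have h3 : p ^ 2 ≤ p ^ (Nat.card G).factorization p := Nat.pow_le_pow_right hp.pos h1
    rw [← h2] at h3
    nlinarith [hp.one_lt]
  set L : Subgroup G := Subgroup.normalClosure ((P : Subgroup G) : Set G) with hLdef
  have hLn : L.Normal := Subgroup.normalClosure_normal
  have hPL : (P : Subgroup G) ≤ L := Subgroup.le_normalClosure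
  have hxp : ∀ x ∈ (P : Subgroup G), x ^ p = 1 := by
    intro x hx
    have h1 := orderOf_dvd_natCard (⟨x, hx⟩ : (P : Subgroup G))
    rw [hcardP] at h1
    have h2 : (⟨x, hx⟩ : (P : Subgroup G)) ^ p = 1 := orderOf_dvd_iff_pow_eq_one.mp h1
    exact congrArg Subtype.val h2
  have hntL : Nontrivial L := by
    have h1 : 1 < Nat.card P := by rw [hcardP]; exact hp.one_lt
    haveI : Nontrivial (P : Subgroup G) := Finite.one_lt_card_iff_nontrivial.mp h1
    obtain ⟨x, hx⟩ := exists_ne (1 : (P : Subgroup G))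
    refine ⟨⟨⟨(x : G), hPL x.2⟩, 1, fun h => hx ?_⟩⟩
    have h' : ((⟨(x : G), hPL x.2⟩ : L) : G) = ((1 : L) : G) := congrArg Subtype.val h
    exact Subtype.ext h'
  obtain ⟨M₁, hM₁n, hsimp⟩ := exists_simple_quotient L
  haveI := hM₁n
  have hntQ : 1 < Nat.card (L ⧸ M₁) := Finite.one_lt_card_iff_nontrivial.mpr hsimp.toNontrivial
  -- (2a) `p` divides the order of the simple quotient
  have h2a : p ∣ Nat.card (L ⧸ M₁) := by
    by_contra hnd
    have key : ∀ y ∈ Group.conjugatesOfSet ((P : Subgroup G) : Set G),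
        y ∈ M₁.map L.subtype := by
      intro y hy
      have hyL : y ∈ L := Subgroup.conjugatesOfSet_subset_normalClosure hy
      obtain ⟨x, hxP, hconj⟩ := Group.mem_conjugatesOfSet_iff.mp hy
      have hyp : y ^ p = 1 := by
        obtain ⟨c, hc⟩ := isConj_iff.mp hconj
        rw [← hc, conj_pow, hxp x hxP]
        group
      have h1 : (⟨y, hyL⟩ : L) ^ p = 1 := Subtype.ext (by simpa using hyp)
      exact ⟨⟨y, hyL⟩, mem_of_pow_eq_one hp M₁ hnd _ h1, rfl⟩
    have hLle : L ≤ M₁.map L.subtype := (Subgroup.closure_le _).mpr key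
    have htop : M₁ = ⊤ := by
      rw [eq_top_iff]
      intro x _
      obtain ⟨x', hx', hxx⟩ := hLle x.2
      have h1 : x' = x := Subtype.ext hxx
      rw [← h1]
      exact hx'
    have hc1 : Nat.card (L ⧸ M₁) = 1 := by
      rw [← Subgroup.index_eq_card, htop]
      exact Subgroup.index_top
    omega
  have hLcard : Nat.card L = Nat.card M₁ * Nat.card (L ⧸ M₁) := by
    rw [← Subgroup.index_eq_card]
    exact (Subgroup.card_mul_index M₁).symm
  -- (2b) the simple quotient is not cyclic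
  have h2b : ¬ IsCyclic (L ⧸ M₁) := by
    intro hcyc
    haveI : IsMulCommutative (L ⧸ M₁) :=
      ⟨⟨fun a b => (IsCyclic.commGroup (α := L ⧸ M₁)).mul_comm a b⟩⟩
    have hprime : (Nat.card (L ⧸ M₁)).Prime := Group.is_simple_iff_prime_card.mp hsimp
    have hcardQ : Nat.card (L ⧸ M₁) = p := ((Nat.prime_dvd_prime_iff_eq hp hprime).mp h2a).symm
    rw [hcardQ] at hLcard
    have hM₁p : ¬ p ∣ Nat.card M₁ := by
      intro h
      apply hp2
      have h1 : p ^ 2 ∣ Nat.card L := by
        rw [hLcard, pow_two]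
        exact Nat.mul_dvd_mul_right h p
      exact h1.trans (Subgroup.card_subgroup_dvd_card L)
    set K : Subgroup G := M₁.map L.subtype with hKdef
    have hKcard : Nat.card K = Nat.card M₁ :=
      (Nat.card_congr (M₁.equivMapOfInjective L.subtype L.subtype_injective).toEquiv).symm
    have hKL : K ≤ L := by
      rintro _ ⟨x, _, rfl⟩
      exact x.2
    have hKn : K.Normal := by
      constructor
      intro y hy g
      obtain ⟨y', hy'M, rfl⟩ := hy
      have hzL : g * (y' : G) * g⁻¹ ∈ L := hLn.conj_mem _ y'.2 g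
      refine ⟨⟨_, hzL⟩, ?_, rfl⟩
      have hy1 : (⟨y', hy'M⟩ : M₁) ^ Nat.card M₁ = 1 := pow_card_eq_one'
      have hy2 : (y' : G) ^ Nat.card M₁ = 1 := by
        have h1 : (y' : L) ^ Nat.card M₁ = 1 := congrArg (Subtype.val : M₁ → L) hy1
        exact congrArg (Subtype.val : L → G) h1
      have hz : (⟨g * (y' : G) * g⁻¹, hzL⟩ : L) ^ Nat.card M₁ = 1 := by
        apply Subtype.ext
        show (g * (y' : G) * g⁻¹) ^ Nat.card M₁ = 1
        rw [conj_pow, hy2]
        group
      have h1 : ((⟨g * (y' : G) * g⁻¹, hzL⟩ : L) : L ⧸ M₁) ^ Nat.card M₁ = 1 := by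
        rw [← QuotientGroup.mk_pow, hz]
        rfl
      have h2 : ((⟨g * (y' : G) * g⁻¹, hzL⟩ : L) : L ⧸ M₁) ^ p = 1 := by
        rw [← hcardQ]
        exact pow_card_eq_one'
      have h3 : orderOf ((⟨g * (y' : G) * g⁻¹, hzL⟩ : L) : L ⧸ M₁) = 1 :=
        Nat.eq_one_of_dvd_coprimes ((Nat.Prime.coprime_iff_not_dvd hp).mpr hM₁p)
          (orderOf_dvd_of_pow_eq_one h2) (orderOf_dvd_of_pow_eq_one h1)
      exact (QuotientGroup.eq_one_iff _).mp (orderOf_eq_one_iff.mp h3)
    haveI := hKn
    let Q : Subgroup (G ⧸ K) := L.map (QuotientGroup.mk' K)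
    haveI hQn : Q.Normal := hLn.map _ (QuotientGroup.mk'_surjective K)
    have hQcard : Nat.card Q = p := by
      have h1 : Q.index = L.index :=
        Subgroup.index_map_eq _ (QuotientGroup.mk'_surjective K)
          (by rw [QuotientGroup.ker_mk']; exact hKL)
      have h2 := Subgroup.card_mul_index Q
      have h3 : Nat.card (G ⧸ K) = K.index := (Subgroup.index_eq_card K).symm
      have h4 := Subgroup.card_mul_index K
      have h5 := Subgroup.card_mul_index L
      have hLi : 0 < L.index := Nat.pos_of_ne_zero Subgroup.index_ne_zero_of_finite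
      have hM₁pos : 0 < Nat.card M₁ := Nat.card_pos
      rw [h1, h3] at h2
      rw [hKcard] at h4
      rw [hLcard] at h5
      have h6 : Nat.card M₁ * (Nat.card Q * L.index) = Nat.card M₁ * (p * L.index) := by
        rw [h2, h4, ← h5]
        ring
      have h7 := Nat.eq_of_mul_eq_mul_left hM₁pos h6
      exact Nat.eq_of_mul_eq_mul_right hLi h7
    have hp2Q : ¬ p ^ 2 ∣ Nat.card (G ⧸ K) := by
      intro h
      apply hp2
      have h1 : Nat.card (G ⧸ K) ∣ Nat.card G := by
        rw [← Subgroup.index_eq_card]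
        exact Subgroup.index_dvd_card K
      exact h.trans h1
    exact false_of_normal_prime (perfect_quotient hperf K) Q hQcard hp2Q
  -- the Brauer–Reynolds bound
  have h5 := Subgroup.card_mul_index L
  have hcardlt : Nat.card (L ⧸ M₁) < p ^ 3 := by
    have h1 : Nat.card (L ⧸ M₁) ≤ Nat.card L := by
      rw [hLcard]
      exact Nat.le_mul_of_pos_left _ Nat.card_pos
    have h2 : Nat.card L ≤ Nat.card G := Subgroup.card_le_card_group L
    omega
  have hb := hBR (L ⧸ M₁) h2b h2a hcardlt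
  have hLi : 0 < L.index := Nat.pos_of_ne_zero Subgroup.index_ne_zero_of_finite
  have hlt3 : L.index < 3 := by
    by_contra hge
    have h1 : 3 * Nat.card (L ⧸ M₁) ≤ Nat.card G := by
      calc 3 * Nat.card (L ⧸ M₁) ≤ L.index * Nat.card L :=
            Nat.mul_le_mul (not_lt.mp hge) (by
              rw [hLcard]
              exact Nat.le_mul_of_pos_left _ Nat.card_pos)
        _ = Nat.card G := by rw [← h5]; ring
    omega
  have hLi1 : L.index = 1 := by
    by_contra hne
    have h2' : L.index = 2 := by omega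
    have hc2 : Nat.card (G ⧸ L) = 2 := by
      rw [← Subgroup.index_eq_card]
      exact h2'
    haveI : Fact (Nat.Prime 2) := ⟨Nat.prime_two⟩
    haveI : IsCyclic (G ⧸ L) := isCyclic_of_prime_card hc2
    haveI : Nontrivial (G ⧸ L) := Finite.one_lt_card_iff_nontrivial.mp (by omega)
    exact not_cyclic_of_perfect (perfect_quotient hperf L) inferInstance
  exact Subgroup.index_eq_one.mp hLi1

/-- a finite field of order `2 ^ m`, `m ≥ 1`, has characteristic two -/
theorem charP_two_of_card {F : Type*} [Field F] [Fintype F] {m : ℕ} (hm : 1 ≤ m)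
    (hc : Fintype.card F = 2 ^ m) : CharP F 2 := by
  obtain ⟨q, hq⟩ := CharP.exists F
  haveI := hq
  obtain ⟨n, hqp, hcard⟩ := FiniteField.card F q
  have h1 : q ∣ 2 ^ m := by
    rw [← hc, hcard]
    exact dvd_pow_self q n.ne_zero
  have h2 : q ∣ 2 := hqp.dvd_of_dvd_pow h1
  have h3 : q = 2 := (Nat.prime_dvd_prime_iff_eq hqp Nat.prime_two).mp h2
  rw [h3] at hq
  exact hq

/-- the statement of S4701 from the statement of S0999 (Brauer–Reynolds) -/
theorem perfect_main {G : Type u} [Group G] [Finite G] (hperf : commutator G = ⊤) (p : ℕ)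
    [Fact p.Prime] (hdvd : p ∣ Nat.card G) (hbig : Nat.card G < p ^ 3) (P : Sylow p G)
    (hP : ¬ (P : Subgroup G).Normal) (h2 : ∀ N : Subgroup G, N.Normal → Nat.card N ≠ 2)
    (hS0999 : ∀ (S : Type u) [Group S] [Finite S] [IsSimpleGroup S], ¬ IsCyclic S →
      p ∣ Nat.card S → Nat.card S < p ^ 3 → BRConcl S p) :
    (∃ (F : Type) (_ : Field F) (_ : Fintype F), Fintype.card F = p ∧ 3 < p ∧
      Nonempty (G ≃* Matrix.ProjectiveSpecialLinearGroup (Fin 2) F)) ∨
    (∃ (m : ℕ) (F : Type) (_ : Field F) (_ : Fintype F), Fintype.card F = 2 ^ m ∧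
      p = 2 ^ m + 1 ∧ 3 < p ∧ Nonempty (G ≃* Matrix.SpecialLinearGroup (Fin 2) F)) := by
  classical
  have hp : p.Prime := Fact.out
  have hBR : ∀ (S : Type u) [Group S] [Finite S] [IsSimpleGroup S], ¬ IsCyclic S →
      p ∣ Nat.card S → Nat.card S < p ^ 3 → p ^ 3 ≤ 3 * Nat.card S :=
    fun S _ _ _ h1 h2 h3 => card_bound (hS0999 S h1 h2 h3)
  have hcardP : Nat.card P = p := sylow_card_eq p hdvd hbig P hP
  have hLtop := normalClosure_eq_top hperf p hdvd hbig P hP hBR
  have hntG : Nontrivial G := by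
    have h1 : 1 < Nat.card G := lt_of_lt_of_le hp.one_lt (Nat.le_of_dvd Nat.card_pos hdvd)
    exact Finite.one_lt_card_iff_nontrivial.mp h1
  obtain ⟨M, hMn, hsimp⟩ := exists_simple_quotient G
  haveI := hMn
  have hxp : ∀ x ∈ (P : Subgroup G), x ^ p = 1 := by
    intro x hx
    have h1 := orderOf_dvd_natCard (⟨x, hx⟩ : (P : Subgroup G))
    rw [hcardP] at h1
    have h2 : (⟨x, hx⟩ : (P : Subgroup G)) ^ p = 1 := orderOf_dvd_iff_pow_eq_one.mp h1
    exact congrArg Subtype.val h2
  have hntQ : 1 < Nat.card (G ⧸ M) := Finite.one_lt_card_iff_nontrivial.mpr hsimp.toNontrivial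
  have hpd : p ∣ Nat.card (G ⧸ M) := by
    by_contra hnd
    have hPM : ((P : Subgroup G) : Set G) ⊆ M :=
      fun x hx => mem_of_pow_eq_one hp M hnd x (hxp x hx)
    have hle : Subgroup.normalClosure ((P : Subgroup G) : Set G) ≤ M :=
      Subgroup.normalClosure_le_normal hPM
    rw [hLtop] at hle
    have hMtop : M = ⊤ := top_le_iff.mp hle
    have hc1 : Nat.card (G ⧸ M) = 1 := by
      rw [← Subgroup.index_eq_card, hMtop]
      exact Subgroup.index_top
    omega
  haveI := hsimp.toNontrivial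
  have hnc : ¬ IsCyclic (G ⧸ M) := not_cyclic_of_perfect (perfect_quotient hperf M)
  have hcard : Nat.card M * Nat.card (G ⧸ M) = Nat.card G := by
    rw [← Subgroup.index_eq_card]
    exact Subgroup.card_mul_index M
  have hlt : Nat.card (G ⧸ M) < p ^ 3 := by
    have h1 : Nat.card (G ⧸ M) ≤ Nat.card G := by
      rw [← hcard]
      exact Nat.le_mul_of_pos_left _ Nat.card_pos
    omega
  have hb := hBR (G ⧸ M) hnc hpd hlt
  have hM2 : Nat.card M < 3 := by
    by_contra hge
    have h1 : 3 * Nat.card (G ⧸ M) ≤ Nat.card G := by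
      rw [← hcard]
      exact Nat.mul_le_mul_right _ (not_lt.mp hge)
    omega
  have hM1 : Nat.card M = 1 := by
    have h3 := h2 M hMn
    have h4 : 0 < Nat.card M := Nat.card_pos
    omega
  have hMbot : M = ⊥ := Subgroup.card_eq_one.mp hM1
  let e : G ≃* G ⧸ M :=
    (QuotientGroup.quotientBot (G := G)).symm.trans (QuotientGroup.quotientMulEquivOfEq hMbot.symm)
  rcases hS0999 (G ⧸ M) hnc hpd hlt with
    ⟨F, hF1, hF2, hc, hp3, ⟨f⟩⟩ | ⟨m, F, hF1, hF2, hc, hpm, hp3, ⟨f⟩⟩
  · left
    exact ⟨F, hF1, hF2, hc, hp3, ⟨e.trans f⟩⟩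
  · right
    letI := hF1
    letI := hF2
    have hm : 1 ≤ m := by
      rcases Nat.eq_zero_or_pos m with h0 | h0
      · rw [h0] at hpm
        norm_num at hpm
        omega
      · exact h0
    haveI : CharP F 2 := charP_two_of_card hm hc
    exact ⟨m, F, hF1, hF2, hc, hpm, hp3, ⟨(e.trans f).trans (Helper65.pslEquivSL F)⟩⟩

end Cfsg.Agent.Lib.Helper83.BRPerf
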