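import Mathlib
import Cfsg.Agent.Lib.Helper10.BT0
import Cfsg.Agent.Lib.Helper83.Ortho
import Cfsg.Agent.Lib.Helper83.IrrBasic

/-!
# S4700 piece BT-K2 (project of helper10; proof by helper83)
-/

set_option autoImplicit false
set_option linter.style.haveILetI false
set_option linter.unusedVariables false

namespace Cfsg.Agent.Lib.Helper10.BT

open Cfsg
open Cfsg.Agent.Lib.Helper83 (trivIrr)
open Cfsg.Agent.Lib.Helper10.BR (psum DOut Tab)
open scoped ComplexConjugate

/-- BT-K2 -/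
theorem perm_deg {G : Type*} [Group G] [Fintype G] [Fintype (IrrCharacter G)]
    (N : Subgroup G) :
    ∑ ψ : IrrCharacter G, psum N (ψ : G → ℂ) 1 * (ψ : G → ℂ) 1 = (Nat.card G : ℂ) := by
  classical
  haveI : Fintype N := Fintype.ofFinite _
  have hreal : ∀ ψ : IrrCharacter G, conj ((ψ : G → ℂ) 1) = (ψ : G → ℂ) 1 := by
    intro ψ
    rw [(Cfsg.Agent.Lib.Helper83.irr_degree ψ.2).2]
    exact Complex.conj_natCast _
  have h1 : ∀ ψ : IrrCharacter G, psum N (ψ : G → ℂ) 1 * (ψ : G → ℂ) 1 =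
      ∑ u : N, (ψ : G → ℂ) (u : G) * conj ((ψ : G → ℂ) 1) := by
    intro ψ
    rw [Cfsg.Agent.Lib.Helper10.BR.psum_eq_sum, Finset.sum_mul, hreal]
    refine Finset.sum_congr rfl fun u _ => ?_
    rw [one_mul]
  have h2 : ∀ u : N, ∑ ψ : IrrCharacter G, (ψ : G → ℂ) (u : G) * conj ((ψ : G → ℂ) 1) =
      if u = 1 then (Nat.card G : ℂ) else 0 := by
    intro u
    by_cases hu : u = 1
    · rw [if_pos hu, hu, ← Cfsg.Agent.Lib.Helper83.sum_degree_sq (G := G)]
      refine Finset.sum_congr rfl fun ψ _ => ?_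
      rw [hreal, sq]
      rfl
    · rw [if_neg hu]
      apply Cfsg.Agent.Lib.Helper83.column_orthogonality_not_conj
      intro hc
      apply hu
      have h3 : (u : G) = 1 := isConj_one_right.1 hc
      exact Subtype.ext h3
  calc ∑ ψ : IrrCharacter G, psum N (ψ : G → ℂ) 1 * (ψ : G → ℂ) 1
      = ∑ ψ : IrrCharacter G, ∑ u : N, (ψ : G → ℂ) (u : G) * conj ((ψ : G → ℂ) 1) :=
        Finset.sum_congr rfl fun ψ _ => h1 ψ
    _ = ∑ u : N, ∑ ψ : IrrCharacter G, (ψ : G → ℂ) (u : G) * conj ((ψ : G → ℂ) 1) :=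
        Finset.sum_comm
    _ = ∑ u : N, (if u = 1 then (Nat.card G : ℂ) else 0) :=
        Finset.sum_congr rfl fun u _ => h2 u
    _ = (Nat.card G : ℂ) := by
        rw [Finset.sum_ite_eq' Finset.univ (1 : N) (fun _ => (Nat.card G : ℂ))]
        simp

end Cfsg.Agent.Lib.Helper10.BT
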