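import Mathlib
import Cfsg.Agent.Lib.Helper10.BT0
import Cfsg.Agent.Lib.Helper83.BRL2
import Cfsg.Agent.Lib.Helper35.Ind

/-!
# S4700 piece BT-K4 (project of helper10; proof by helper83)
-/

set_option autoImplicit false
set_option linter.style.haveILetI false
set_option linter.unusedVariables false

namespace Cfsg.Agent.Lib.Helper10.BT

open Cfsg
open Cfsg.Agent.Lib.Helper83 (trivIrr)
open Cfsg.Agent.Lib.Helper10.BR (psum DOut Tab)
open scoped ComplexConjugate

/-- BT-K4 -/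
theorem perm_le {G : Type*} [Group G] [Fintype G] (P N : Subgroup G) (hPN : P ≤ N)
    (hN : N ≤ Subgroup.normalizer (P : Set G)) (ψ : IrrCharacter G) :
    ‖psum N (ψ : G → ℂ) 1‖ * (Nat.card P : ℝ) ≤
      (psum P (ψ : G → ℂ) 1).re * (Nat.card N : ℝ) := by
  classical
  haveI : Fintype N := Fintype.ofFinite _
  haveI : Fintype P := Fintype.ofFinite _
  have hchar : IsCharacter G (ψ : G → ℂ) := Cfsg.Agent.Lib.Helper35.isChar_of_irr ψ.2
  -- the key identity
  have hkey : ∑ y : N, psum P (ψ : G → ℂ) (y : G) =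
      (Nat.card P : ℂ) * psum N (ψ : G → ℂ) 1 := by
    have h1 : ∀ y : N, psum P (ψ : G → ℂ) (y : G) = ∑ u : P, (ψ : G → ℂ) ((y : G) * (u : G)) :=
      fun y => Cfsg.Agent.Lib.Helper10.BR.psum_eq_sum P _ _
    rw [Finset.sum_congr rfl fun y _ => h1 y, Finset.sum_comm]
    have h2 : ∀ u : P, ∑ y : N, (ψ : G → ℂ) ((y : G) * (u : G)) = psum N (ψ : G → ℂ) 1 := by
      intro u
      rw [Cfsg.Agent.Lib.Helper10.BR.psum_eq_sum]
      have hu : (u : G) ∈ N := hPN u.2
      refine Fintype.sum_equiv (Equiv.mulRight (⟨(u : G), hu⟩ : N)) _ _ ?_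
      intro y
      show (ψ : G → ℂ) ((y : G) * (u : G)) = (ψ : G → ℂ) (1 * ((y * ⟨(u : G), hu⟩ : N) : G))
      rw [one_mul]
      rfl
    rw [Finset.sum_congr rfl fun u _ => h2 u, Finset.sum_const, Finset.card_univ,
      nsmul_eq_mul, Nat.card_eq_fintype_card]
  have hb : ∀ y : N, ‖psum P (ψ : G → ℂ) (y : G)‖ ≤ (psum P (ψ : G → ℂ) 1).re :=
    fun y => Cfsg.Agent.Lib.Helper10.BR.psum_bound P _ hchar _ (hN y.2)
  have h3 : ‖(Nat.card P : ℂ) * psum N (ψ : G → ℂ) 1‖ ≤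
      ∑ y : N, (psum P (ψ : G → ℂ) 1).re := by
    rw [← hkey]
    exact (norm_sum_le _ _).trans (Finset.sum_le_sum fun y _ => hb y)
  rw [norm_mul, Complex.norm_natCast, Finset.sum_const, Finset.card_univ, nsmul_eq_mul,
    ← Nat.card_eq_fintype_card] at h3
  linarith

end Cfsg.Agent.Lib.Helper10.BT
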