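import Mathlib
import Cfsg.Agent.Lib.Helper83.Glaub1
import Cfsg.Agent.Lib.Helper83.ProjExt
import Cfsg.Agent.Lib.Helper83.LinearCount
import Cfsg.Agent.Lib.Helper20.ExtPrime
import Cfsg.Agent.Lib.Helper20.Gallagher
import Cfsg.Agent.Lib.Helper5.GlRes

/-!
# Coprime action lemmas, part 1

* `irr_descend`: descent of an irreducible character along a surjective homomorphism;
* `fixed_point_abelian`: Glauberman's lemma for an abelian transitive group;
* `lin_transitive`: the linear characters of an abelian quotient `M/N` act transitively on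
  the irreducible characters of `M` over a given character of `N`.
-/

set_option autoImplicit false

namespace Cfsg.Agent.Lib.Helper83

open scoped ComplexConjugate
open Cfsg

/-- descent of an irreducible character along a surjective homomorphism -/
theorem irr_descend {A B : Type*} [Group A] [Finite A] [Group B] (f : A →* B)
    (hf : Function.Surjective f) {ψ : A → ℂ} (hψ : IsIrrCharacter A ψ)
    (hker : ∀ k : A, f k = 1 → ψ k = ψ 1) :
    ∃ χ : B → ℂ, IsIrrCharacter B χ ∧ ∀ a, χ (f a) = ψ a := by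
  obtain ⟨n, ρ, hρ, rfl⟩ := hψ
  have hk : f.ker ≤ MonoidHom.ker (ρ : A →* Module.End ℂ (Fin n → ℂ)) := fun x hx => by
    rw [MonoidHom.mem_ker]
    exact rho_eq_one_of_char_eq ρ x (hker x (MonoidHom.mem_ker.mp hx))
  let e := QuotientGroup.quotientKerEquivOfSurjective f hf
  let σ : Representation ℂ B (Fin n → ℂ) :=
    (QuotientGroup.lift f.ker (ρ : A →* Module.End ℂ (Fin n → ℂ)) hk).comp e.symm.toMonoidHom
  have hσ : ∀ a, σ (f a) = ρ a := by
    intro a
    have h1 : e.symm (f a) = (a : A ⧸ f.ker) := by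
      rw [MulEquiv.symm_apply_eq]
      rfl
    show (QuotientGroup.lift f.ker (ρ : A →* Module.End ℂ (Fin n → ℂ)) hk) (e.symm (f a)) = ρ a
    rw [h1]
    rfl
  refine ⟨σ.character, ⟨n, σ, ?_, rfl⟩, fun a => ?_⟩
  · refine irreducible_of_equiv ρ σ (LinearEquiv.refl ℂ _) (fun a => ⟨f a, fun v => ?_⟩) hρ
    rw [hσ]
    rfl
  · simp only [Representation.character, hσ]

/-- **Glauberman's lemma**, abelian case: if `S` acts on the abelian group `A` of exponent
dividing `e` and on the set `X`, compatibly with a transitive action of `A` on `X`, and a normal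
subgroup `S₀` of index coprime to `e` acts trivially on `X`, then `S` fixes a point of `X`. -/
theorem fixed_point_abelian {S A X : Type*} [Group S] [CommGroup A] (S₀ : Subgroup S)
    [S₀.Normal] [Finite (S ⧸ S₀)] (act : A → X → X) (σ : S → X → X) (φ : S → A → A) (e : ℕ)
    (hact1 : ∀ x, act 1 x = x) (hactmul : ∀ a b x, act (a * b) x = act a (act b x))
    (hexp : ∀ a : A, a ^ e = 1) (hcop : e.Coprime (Nat.card (S ⧸ S₀)))
    (htrans : ∀ x y : X, ∃ a : A, act a x = y)
    (hσmul : ∀ s t x, σ (s * t) x = σ s (σ t x)) (hσ0 : ∀ s ∈ S₀, ∀ x, σ s x = x)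
    (hφmul : ∀ s a b, φ s (a * b) = φ s a * φ s b)
    (hcompat : ∀ s a x, σ s (act a x) = act (φ s a) (σ s x)) (x₀ : X) :
    ∃ x, ∀ s, σ s x = x := by
  classical
  let _ : Fintype (S ⧸ S₀) := Fintype.ofFinite _
  let U : Subgroup A :=
    { carrier := {a | act a x₀ = x₀}
      mul_mem' := by
        intro a b ha hb
        have ha' : act a x₀ = x₀ := ha
        have hb' : act b x₀ = x₀ := hb
        show act (a * b) x₀ = x₀
        rw [hactmul, hb', ha']
      one_mem' := hact1 x₀
      inv_mem' := by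
        intro a ha
        have ha' : act a x₀ = x₀ := ha
        show act a⁻¹ x₀ = x₀
        have h : act a⁻¹ (act a x₀) = x₀ := by rw [← hactmul, inv_mul_cancel, hact1]
        rw [ha'] at h
        exact h }
  have hUmem : ∀ a : A, a ∈ U ↔ act a x₀ = x₀ := fun a => Iff.rfl
  have hU : ∀ a b : A, (QuotientGroup.mk a : A ⧸ U) = QuotientGroup.mk b ↔
      act a x₀ = act b x₀ := by
    intro a b
    rw [QuotientGroup.eq, hUmem]
    constructor
    · intro h
      have h2 := congrArg (act a) h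
      rw [← hactmul, mul_inv_cancel_left] at h2
      exact h2.symm
    · intro h
      rw [hactmul, ← h, ← hactmul, inv_mul_cancel, hact1]
  choose lam hlam using fun s : S => htrans x₀ (σ s x₀)
  have hφ1 : ∀ s, φ s 1 = 1 := by
    intro s
    have h := hφmul s 1 1
    rw [mul_one] at h
    exact mul_eq_left.mp h.symm
  have hφpow : ∀ s a (k : ℕ), φ s (a ^ k) = φ s a ^ k := by
    intro s a k
    induction k with
    | zero => simp [hφ1]
    | succ k ih => rw [pow_succ, hφmul, ih, pow_succ]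
  have hφprod : ∀ s (f : S ⧸ S₀ → A), φ s (∏ q, f q) = ∏ q, φ s (f q) := by
    intro s f
    let φh : A →* A := { toFun := φ s, map_one' := hφ1 s, map_mul' := hφmul s }
    exact map_prod φh f Finset.univ
  have hstep : ∀ s (a : A), σ s (act a x₀) = act (φ s a * lam s) x₀ := by
    intro s a
    rw [hcompat, ← hlam s, ← hactmul]
  have hcoc : ∀ s t, (QuotientGroup.mk (lam (s * t)) : A ⧸ U) =
      QuotientGroup.mk (φ s (lam t) * lam s) := by
    intro s t
    rw [hU, hlam, hσmul, ← hlam t, hstep]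
  have hout : ∀ (s : S) (q : S ⧸ S₀), (QuotientGroup.mk (lam (s * q.out)) : A ⧸ U) =
      QuotientGroup.mk (lam ((s : S ⧸ S₀) * q).out) := by
    intro s q
    rw [hU, hlam, hlam]
    set r := ((s : S ⧸ S₀) * q).out with hr
    have hn : r⁻¹ * (s * q.out) ∈ S₀ := by
      rw [← QuotientGroup.eq, hr, QuotientGroup.out_eq', QuotientGroup.mk_mul,
        QuotientGroup.out_eq']
    have h2 : s * q.out = r * (r⁻¹ * (s * q.out)) := by group
    rw [h2, hσmul, hσ0 _ hn]
  set ν : A := ∏ q : S ⧸ S₀, lam q.out with hν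
  set m := Nat.card (S ⧸ S₀) with hm
  have hstar : ∀ s, (QuotientGroup.mk (φ s ν * lam s ^ m) : A ⧸ U) = QuotientGroup.mk ν := by
    intro s
    have h1 : φ s ν * lam s ^ m = ∏ q : S ⧸ S₀, (φ s (lam q.out) * lam s) := by
      rw [Finset.prod_mul_distrib, Finset.prod_const, Finset.card_univ, hφprod, hm,
        Nat.card_eq_fintype_card]
    rw [h1, hν]
    rw [← QuotientGroup.mk'_apply, ← QuotientGroup.mk'_apply, map_prod, map_prod]
    rw [← Equiv.prod_comp (Equiv.mulLeft (s : S ⧸ S₀))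
      (fun q => (QuotientGroup.mk' U) (lam q.out))]
    apply Finset.prod_congr rfl
    intro q _
    show (QuotientGroup.mk (φ s (lam q.out) * lam s) : A ⧸ U) =
      QuotientGroup.mk (lam ((s : S ⧸ S₀) * q).out)
    rw [← hcoc, hout]
  obtain ⟨k, hk⟩ : ∃ k : ℕ, ∀ a : A, a ^ (m * k) = a := by
    rcases Nat.lt_or_ge 1 e with he | he
    · obtain ⟨k, -, hk⟩ := Nat.exists_mul_mod_eq_one_of_coprime hcop.symm he
      refine ⟨k, fun a => ?_⟩
      rw [← Nat.div_add_mod (m * k) e, pow_add, pow_mul, hexp, one_pow, one_mul, hk, pow_one]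
    · interval_cases e
      · rw [Nat.coprime_zero_left] at hcop
        refine ⟨1, fun a => ?_⟩
        rw [hcop, mul_one, pow_one]
      · refine ⟨1, fun a => ?_⟩
        have h1 := hexp a
        rw [pow_one] at h1
        rw [h1, one_pow]
  refine ⟨act (ν ^ k) x₀, fun s => ?_⟩
  rw [hstep, ← hU]
  have h1 : φ s (ν ^ k) * lam s = (φ s ν * lam s ^ m) ^ k := by
    rw [mul_pow, ← pow_mul, hk, hφpow]
  rw [h1, QuotientGroup.mk_pow, hstar, QuotientGroup.mk_pow]

/-- If `M/N` is abelian, two irreducible characters of `M` whose restrictions to `N` are not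
orthogonal differ by a linear character of `M/N`. -/
theorem lin_transitive {M : Type*} [Group M] [Fintype M] (N : Subgroup M) [N.Normal] [Fintype N]
    (hab : ∀ a b : M, a * b * a⁻¹ * b⁻¹ ∈ N) {χ χ' : M → ℂ} (hχ : IsIrrCharacter M χ)
    (hχ' : IsIrrCharacter M χ')
    (hne0 : ∑ n : N, χ' n * conj (χ n) ≠ 0) :
    ∃ l : (M ⧸ N) →* ℂˣ, ∀ g : M, χ' g = ((l (g : M ⧸ N) : ℂˣ) : ℂ) * χ g := by
  classical
  have hne : ∑ g : M, (if g ∈ N then χ' g * conj (χ g) else 0) ≠ 0 := by
    rw [Helper20.sum_eq_sum_subgroup N _ (fun g hg => if_neg hg)]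
    have h1 : ∀ n : N, (if (n : M) ∈ N then χ' n * conj (χ n) else 0) = χ' n * conj (χ n) :=
      fun n => if_pos n.2
    rw [Finset.sum_congr rfl (fun n _ => h1 n)]
    exact hne0
  let _ : Fintype (M ⧸ N) := Fintype.ofFinite _
  have := Helper4.irr_finite (G := M ⧸ N)
  let _ : Fintype (IrrCharacter (M ⧸ N)) := Fintype.ofFinite _
  have hcomm : IsMulCommutative (M ⧸ N) := ⟨⟨by
    intro a b
    induction a using QuotientGroup.induction_on with
    | H a =>
      induction b using QuotientGroup.induction_on with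
      | H b =>
        rw [← QuotientGroup.mk_mul, ← QuotientGroup.mk_mul, QuotientGroup.eq]
        have h := hab b⁻¹ a⁻¹
        simpa [mul_assoc] using h⟩⟩
  have hdeg : ∀ ψ : IrrCharacter (M ⧸ N), (ψ : M ⧸ N → ℂ) 1 = 1 := fun ψ => irr_comm_degree ψ.2
  have hcol : ∀ q : M ⧸ N, q ≠ 1 →
      ∑ ψ : IrrCharacter (M ⧸ N), conj ((ψ : M ⧸ N → ℂ) q) = 0 := by
    intro q hq
    have h := column_orthogonality_not_conj (G := M ⧸ N) (g := 1) (h := q)
      (by rw [isConj_one_left]; exact fun h => hq h)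
    simpa only [hdeg, one_mul] using h
  have key : ∑ ψ : IrrCharacter (M ⧸ N), ∑ g : M,
      χ' g * conj ((ψ : M ⧸ N → ℂ) (g : M ⧸ N) * χ g) =
      (Fintype.card (IrrCharacter (M ⧸ N)) : ℂ) *
        ∑ g : M, (if g ∈ N then χ' g * conj (χ g) else 0) := by
    rw [Finset.sum_comm, Finset.mul_sum]
    apply Finset.sum_congr rfl
    intro g _
    have h1 : ∀ ψ : IrrCharacter (M ⧸ N), χ' g * conj ((ψ : M ⧸ N → ℂ) (g : M ⧸ N) * χ g) =
        χ' g * conj (χ g) * conj ((ψ : M ⧸ N → ℂ) (g : M ⧸ N)) := by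
      intro ψ
      rw [map_mul]
      ring
    rw [Finset.sum_congr rfl (fun ψ _ => h1 ψ), ← Finset.mul_sum]
    by_cases hg : g ∈ N
    · rw [if_pos hg, (QuotientGroup.eq_one_iff g).mpr hg]
      simp only [hdeg, map_one, Finset.sum_const, Finset.card_univ, nsmul_eq_mul, mul_one]
      ring
    · rw [if_neg hg, hcol _ (fun h => hg ((QuotientGroup.eq_one_iff g).mp h))]
      ring
  have hcard : (Fintype.card (IrrCharacter (M ⧸ N)) : ℂ) ≠ 0 := by
    have : Nonempty (IrrCharacter (M ⧸ N)) := ⟨trivIrr _⟩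
    exact_mod_cast Fintype.card_ne_zero
  have hne2 : ∑ ψ : IrrCharacter (M ⧸ N), ∑ g : M,
      χ' g * conj ((ψ : M ⧸ N → ℂ) (g : M ⧸ N) * χ g) ≠ 0 := by
    rw [key]
    exact mul_ne_zero hcard hne
  obtain ⟨ψ, -, hψ⟩ := Finset.exists_ne_zero_of_sum_ne_zero hne2
  have hψM : IsIrrCharacter M (fun g : M => (ψ : M ⧸ N → ℂ) (g : M ⧸ N)) := irr_inflate N ψ.2
  have hprod : IsIrrCharacter M ((fun g : M => (ψ : M ⧸ N → ℂ) (g : M ⧸ N)) * χ) :=
    Helper20.irr_linear_mul_irr hψM (hdeg ψ) hχ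
  have hinner : classInner χ' ((fun g : M => (ψ : M ⧸ N → ℂ) (g : M ⧸ N)) * χ) ≠ 0 := by
    unfold classInner
    apply mul_ne_zero
    · exact inv_ne_zero (by exact_mod_cast (Nat.card_pos (α := M)).ne')
    · exact hψ
  rw [Helper35.classInner_irr' hχ' hprod] at hinner
  have heq : χ' = (fun g : M => (ψ : M ⧸ N → ℂ) (g : M ⧸ N)) * χ := by
    by_contra hcon
    rw [if_neg hcon] at hinner
    exact hinner rfl
  obtain ⟨l, hl⟩ := Helper20.exists_hom_of_linear (ψ : M ⧸ N → ℂ)
    (Helper35.isChar_of_irr ψ.2) (hdeg ψ)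
  refine ⟨l, fun g => ?_⟩
  rw [hl]
  exact congrFun heq g

end Cfsg.Agent.Lib.Helper83
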