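import Mathlib
import Cfsg.Agent.Lib.Helper83.Cop1

/-!
# Coprime action lemmas, part 2: invariant characters over invariant characters

`coprime_over_aux`: for `N ≤ G` normal in `Γ` with `G/N` solvable, a subgroup `H` with
`|H : H ∩ N|` coprime to `|G : N|` and an `H`-invariant `θ ∈ Irr(N)`, some `H`-invariant
`χ ∈ Irr(G)` lies over `θ`.  `coprime_over_solvable`: the `Γ`-invariant version when
`(|Γ : G|, |G : N|) = 1`.
-/

set_option autoImplicit false

namespace Cfsg.Agent.Lib.Helper83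

open scoped ComplexConjugate Pointwise
open Cfsg

section OverLemmas

variable {Γ : Type*} [Group Γ]

/-- restriction of a character of a subgroup `M` to a smaller subgroup `N` -/
theorem isCharacter_res_le {N M : Subgroup Γ} (hNM : N ≤ M) {η : M → ℂ} (hη : IsCharacter M η) :
    IsCharacter N (fun n : N => η ⟨n, hNM n.2⟩) :=
  isCharacter_comp_hom (Subgroup.inclusion hNM) hη

/-- two characters over the same irreducible character are not orthogonal on the subgroup -/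
theorem sum_ne_zero_of_over {N M : Subgroup Γ} [Fintype N] (hNM : N ≤ M) {η η' : M → ℂ}
    (hη : IsCharacter M η) (hη' : IsCharacter M η') {θ : N → ℂ} (hθ : IsIrrCharacter N θ)
    (h1 : classInner (fun n : N => η ⟨n, hNM n.2⟩) θ ≠ 0)
    (h2 : classInner (fun n : N => η' ⟨n, hNM n.2⟩) θ ≠ 0) :
    ∑ n : N, η' ⟨n, hNM n.2⟩ * conj (η ⟨n, hNM n.2⟩) ≠ 0 := by
  classical
  have := Helper4.irr_finite (G := N)
  let _ : Fintype (IrrCharacter N) := Fintype.ofFinite _
  obtain ⟨a, ha⟩ := Helper4.exists_decomp_of_isCharacter _ (isCharacter_res_le hNM hη)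
  obtain ⟨b, hb⟩ := Helper4.exists_decomp_of_isCharacter _ (isCharacter_res_le hNM hη')
  have ha1 : a (⟨θ, hθ⟩ : IrrCharacter N) ≠ 0 := by
    intro h0
    apply h1
    rw [ha, Helper4.classInner_sum_irr (fun χ => (a χ : ℂ)) ⟨θ, hθ⟩, h0, Nat.cast_zero]
  have hb1 : b (⟨θ, hθ⟩ : IrrCharacter N) ≠ 0 := by
    intro h0
    apply h2
    rw [hb, Helper4.classInner_sum_irr (fun χ => (b χ : ℂ)) ⟨θ, hθ⟩, h0, Nat.cast_zero]
  have h3 : classInner (fun n : N => η' ⟨n, hNM n.2⟩) (fun n : N => η ⟨n, hNM n.2⟩) =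
      ((∑ φ : IrrCharacter N, b φ * a φ : ℕ) : ℂ) := by
    rw [hb, ha, Helper4.classInner_sum_sum_irr]
    push_cast
    apply Finset.sum_congr rfl
    intro φ _
    rw [Complex.conj_natCast]
  have h5 : 0 < ∑ φ : IrrCharacter N, b φ * a φ :=
    lt_of_lt_of_le (Nat.mul_pos (Nat.pos_of_ne_zero hb1) (Nat.pos_of_ne_zero ha1))
      (Finset.single_le_sum (f := fun φ => b φ * a φ) (fun φ _ => Nat.zero_le _)
        (Finset.mem_univ (⟨θ, hθ⟩ : IrrCharacter N)))
  intro hzero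
  have h6 : classInner (fun n : N => η' ⟨n, hNM n.2⟩) (fun n : N => η ⟨n, hNM n.2⟩) = 0 := by
    unfold classInner
    rw [hzero, mul_zero]
  rw [h3] at h6
  exact h5.ne' (by exact_mod_cast h6)

/-- transitivity of "lying over" -/
theorem over_trans {N M G : Subgroup Γ} [Fintype N] [Fintype M] (hNM : N ≤ M) (hMG : M ≤ G)
    {χ : G → ℂ} (hχ : IsCharacter G χ) {η : M → ℂ} (hη : IsIrrCharacter M η) {θ : N → ℂ}
    (hθ : IsIrrCharacter N θ)
    (h1 : classInner (fun m : M => χ ⟨m, hMG m.2⟩) η ≠ 0)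
    (h2 : classInner (fun n : N => η ⟨n, hNM n.2⟩) θ ≠ 0) :
    classInner (fun n : N => χ ⟨n, hMG (hNM n.2)⟩) θ ≠ 0 := by
  classical
  have := Helper4.irr_finite (G := M)
  let _ : Fintype (IrrCharacter M) := Fintype.ofFinite _
  obtain ⟨a, ha⟩ := Helper4.exists_decomp_of_isCharacter _ (isCharacter_res_le hMG hχ)
  have ha1 : a (⟨η, hη⟩ : IrrCharacter M) ≠ 0 := by
    intro h0
    apply h1
    rw [ha, Helper4.classInner_sum_irr (fun χ => (a χ : ℂ)) ⟨η, hη⟩, h0, Nat.cast_zero]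
  have hc : ∀ φ : IrrCharacter M, ∃ c : ℕ,
      classInner (fun n : N => (φ : M → ℂ) ⟨n, hNM n.2⟩) θ = c :=
    fun φ => Helper35.classInner_char_nat (isCharacter_res_le hNM (Helper35.isChar_of_irr φ.2))
      (Helper35.isChar_of_irr hθ)
  choose c hc using hc
  have hc2 : c (⟨η, hη⟩ : IrrCharacter M) ≠ 0 := by
    intro h0
    apply h2
    rw [hc ⟨η, hη⟩, h0, Nat.cast_zero]
  have hval : ∀ n : N, χ ⟨n, hMG (hNM n.2)⟩ =
      ∑ φ : IrrCharacter M, (a φ : ℂ) * (φ : M → ℂ) ⟨n, hNM n.2⟩ := by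
    intro n
    have h := congrFun ha ⟨n, hNM n.2⟩
    simp only [Finset.sum_apply, Pi.smul_apply, smul_eq_mul] at h
    exact h
  have h3 : classInner (fun n : N => χ ⟨n, hMG (hNM n.2)⟩) θ =
      ((∑ φ : IrrCharacter M, a φ * c φ : ℕ) : ℂ) := by
    push_cast
    simp only [← hc]
    unfold classInner
    simp only [hval, Finset.sum_mul, Finset.mul_sum]
    rw [Finset.sum_comm]
    apply Finset.sum_congr rfl
    intro φ _
    apply Finset.sum_congr rfl
    intro n _
    ring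
  have h5 : 0 < ∑ φ : IrrCharacter M, a φ * c φ :=
    lt_of_lt_of_le (Nat.mul_pos (Nat.pos_of_ne_zero ha1) (Nat.pos_of_ne_zero hc2))
      (Finset.single_le_sum (f := fun φ => a φ * c φ) (fun φ _ => Nat.zero_le _)
        (Finset.mem_univ (⟨η, hη⟩ : IrrCharacter M)))
  rw [h3]
  exact_mod_cast h5.ne'

end OverLemmas

section ClaimA

variable {Γ : Type*} [Group Γ] [Finite Γ]

/-- an irreducible character of a normal subgroup is invariant under the subgroup itself -/
theorem conjFun_self (G : Subgroup Γ) [hG : G.Normal] {χ : G → ℂ} (hχ : IsIrrCharacter G χ)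
    (g : Γ) (hg : g ∈ G) : Helper20.conjFun G χ g = χ := by
  funext m
  rw [Helper20.conjFun_apply]
  exact irr_classFunction hχ m ⟨g, hg⟩

theorem coprime_over_aux (G : Subgroup Γ) [hG : G.Normal] :
    ∀ (k : ℕ) (N : Subgroup Γ) [N.Normal] [Fintype N] (hNG : N ≤ G),
      (derivedSeries G k).map G.subtype ≤ N → ∀ H : Subgroup Γ,
      (N.relIndex H).Coprime (N.relIndex G) → ∀ θ : IrrCharacter N,
      (∀ h ∈ H, Helper20.conjFun N (θ : N → ℂ) h = θ) →
      ∃ χ : IrrCharacter G, classInner (fun n : N => (χ : G → ℂ) ⟨n, hNG n.2⟩) (θ : N → ℂ) ≠ 0 ∧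
        ∀ h ∈ H, Helper20.conjFun G (χ : G → ℂ) h = χ := by
  intro k
  induction k with
  | zero =>
    intro N hN _ hNG hD H hcop θ hθ
    have hGN : G ≤ N := by
      have h1 : (derivedSeries G 0).map G.subtype = G := by
        rw [derivedSeries_zero, ← MonoidHom.range_eq_map, Subgroup.range_subtype]
      rwa [h1] at hD
    obtain rfl : N = G := le_antisymm hNG hGN
    refine ⟨θ, ?_, hθ⟩
    have h1 : (fun n : N => (θ : N → ℂ) ⟨n, hNG n.2⟩) = (θ : N → ℂ) := rfl
    rw [h1, Helper35.classInner_irr' θ.2 θ.2, if_pos rfl]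
    exact one_ne_zero
  | succ k ih =>
    intro N hN hFN hNG hD H hcop θ hθ
    classical
    set D : Subgroup Γ := (derivedSeries G k).map G.subtype with hDdef
    have hDn : D.Normal := by rw [hDdef]; infer_instance
    let M : Subgroup Γ := N ⊔ D
    have hMn : M.Normal := Subgroup.sup_normal N D
    have hNM : N ≤ M := le_sup_left
    have hDG : D ≤ G := Subgroup.map_subtype_le _
    have hMG : M ≤ G := sup_le hNG hDG
    letI : Fintype M := Fintype.ofFinite _
    have hab : ∀ a b : Γ, a ∈ M → b ∈ M → a * b * a⁻¹ * b⁻¹ ∈ N := by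
      intro a b ha hb
      have hmem : ∀ x ∈ M, ∃ d ∈ D, (x : Γ ⧸ N) = (d : Γ ⧸ N) := by
        intro x hx
        have hx' : x ∈ (N : Set Γ) * (D : Set Γ) := by
          rw [← Subgroup.normal_mul]
          exact hx
        obtain ⟨n, hn, d, hd, rfl⟩ := Set.mem_mul.mp hx'
        refine ⟨d, hd, ?_⟩
        rw [QuotientGroup.mk_mul, (QuotientGroup.eq_one_iff n).mpr hn, one_mul]
      obtain ⟨d₁, hd₁, e₁⟩ := hmem a ha
      obtain ⟨d₂, hd₂, e₂⟩ := hmem b hb
      rw [← QuotientGroup.eq_one_iff]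
      simp only [QuotientGroup.mk_mul, QuotientGroup.mk_inv, e₁, e₂]
      rw [← QuotientGroup.mk_inv, ← QuotientGroup.mk_inv, ← QuotientGroup.mk_mul,
        ← QuotientGroup.mk_mul, ← QuotientGroup.mk_mul, QuotientGroup.eq_one_iff]
      apply hD
      have h1 : (derivedSeries G (k + 1)).map G.subtype = ⁅D, D⁆ := by
        rw [derivedSeries_succ, Subgroup.map_commutator]
      rw [h1, ← commutatorElement_def]
      exact Subgroup.commutator_mem_commutator hd₁ hd₂
    let N' : Subgroup M := N.subgroupOf M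
    have hN'n : N'.Normal := inferInstance
    letI : Fintype N' := Fintype.ofFinite _
    let eN : N' ≃* N := Subgroup.subgroupOfEquivOfLe hNM
    have hab' : ∀ a b : M, a * b * a⁻¹ * b⁻¹ ∈ N' := by
      intro a b
      exact Subgroup.mem_subgroupOf.mpr (hab a b a.2 b.2)
    let X := {η : IrrCharacter M //
      classInner (fun n : N => (η : M → ℂ) ⟨n, hNM n.2⟩) (θ : N → ℂ) ≠ 0}
    have hlin_over : ∀ (l : (M ⧸ N') →* ℂˣ) (n : N),
        ((l ((⟨n, hNM n.2⟩ : M) : M ⧸ N') : ℂˣ) : ℂ) = 1 := by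
      intro l n
      have h1 : ((⟨n, hNM n.2⟩ : M) : M ⧸ N') = 1 :=
        (QuotientGroup.eq_one_iff _).mpr (Subgroup.mem_subgroupOf.mpr n.2)
      rw [h1, map_one]
      rfl
    let act : ((M ⧸ N') →* ℂˣ) → X → X := fun l η =>
      ⟨⟨fun g => ((l (g : M ⧸ N') : ℂˣ) : ℂ) * (η.1 : M → ℂ) g,
        Helper20.irr_linear_mul_irr (isIrr_of_hom (l.comp (QuotientGroup.mk' N'))) (by simp)
          η.1.2⟩, by
        have h1 : (fun n : N => ((l ((⟨n, hNM n.2⟩ : M) : M ⧸ N') : ℂˣ) : ℂ) *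
            (η.1 : M → ℂ) ⟨n, hNM n.2⟩) = fun n : N => (η.1 : M → ℂ) ⟨n, hNM n.2⟩ := by
          funext n
          rw [hlin_over, one_mul]
        show classInner (fun n : N => ((l ((⟨n, hNM n.2⟩ : M) : M ⧸ N') : ℂˣ) : ℂ) *
            (η.1 : M → ℂ) ⟨n, hNM n.2⟩) (θ : N → ℂ) ≠ 0
        rw [h1]
        exact η.2⟩
    let sg : H → X → X := fun h η =>
      ⟨⟨Helper20.conjFun M (η.1 : M → ℂ) ((h : Γ)⁻¹), Helper20.conjFun_irr M η.1.2 _⟩, by
        show classInner (fun n : N => Helper20.conjFun M (η.1 : M → ℂ) ((h : Γ)⁻¹)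
          ⟨n, hNM n.2⟩) (θ : N → ℂ) ≠ 0
        have h1 : (fun n : N => Helper20.conjFun M (η.1 : M → ℂ) ((h : Γ)⁻¹) ⟨n, hNM n.2⟩) =
            Helper20.conjFun N (fun n : N => (η.1 : M → ℂ) ⟨n, hNM n.2⟩) ((h : Γ)⁻¹) := rfl
        have h2 : classInner (Helper20.conjFun N (fun n : N => (η.1 : M → ℂ) ⟨n, hNM n.2⟩)
            ((h : Γ)⁻¹)) (Helper20.conjFun N (θ : N → ℂ) ((h : Γ)⁻¹)) ≠ 0 := by
          rw [Helper20.classInner_conjFun]
          exact η.2
        rw [hθ _ (H.inv_mem h.2)] at h2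
        rw [h1]
        exact h2⟩
    have hcomap : ∀ h : H, N' ≤ N'.comap
        ((MulAut.conjNormal ((h : Γ)⁻¹) : M ≃* M).toMonoidHom) := by
      intro h a ha
      rw [Subgroup.mem_comap]
      show ((MulAut.conjNormal ((h : Γ)⁻¹) : M ≃* M) a) ∈ N.subgroupOf M
      rw [Subgroup.mem_subgroupOf, MulAut.conjNormal_apply]
      exact hN.conj_mem _ (Subgroup.mem_subgroupOf.mp ha) _
    let cq : H → ((M ⧸ N') →* (M ⧸ N')) := fun h => QuotientGroup.map N' N' _ (hcomap h)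
    let ph : H → ((M ⧸ N') →* ℂˣ) → ((M ⧸ N') →* ℂˣ) := fun h l => l.comp (cq h)
    have hact1 : ∀ x : X, act 1 x = x := by
      intro x
      apply Subtype.ext
      apply Subtype.ext
      funext g
      show (((1 : (M ⧸ N') →* ℂˣ) (g : M ⧸ N') : ℂˣ) : ℂ) * (x.1 : M → ℂ) g = (x.1 : M → ℂ) g
      rw [MonoidHom.one_apply, Units.val_one, one_mul]
    have hactmul : ∀ (a b : (M ⧸ N') →* ℂˣ) (x : X), act (a * b) x = act a (act b x) := by
      intro a b x
      apply Subtype.ext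
      apply Subtype.ext
      funext g
      show ((((a * b : (M ⧸ N') →* ℂˣ)) (g : M ⧸ N') : ℂˣ) : ℂ) * (x.1 : M → ℂ) g =
        ((a (g : M ⧸ N') : ℂˣ) : ℂ) * (((b (g : M ⧸ N') : ℂˣ) : ℂ) * (x.1 : M → ℂ) g)
      rw [MonoidHom.mul_apply, Units.val_mul, mul_assoc]
    have hexp : ∀ a : (M ⧸ N') →* ℂˣ, a ^ Nat.card (M ⧸ N') = 1 := by
      intro a
      apply MonoidHom.ext
      intro q
      rw [MonoidHom.pow_apply, ← map_pow, pow_card_eq_one', map_one]
      rfl
    have hdvdG : M.relIndex G ∣ N.relIndex G :=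
      Dvd.intro_left _ (Subgroup.relIndex_mul_relIndex N M G hNM hMG)
    have hdvdM : N.relIndex M ∣ N.relIndex G :=
      Dvd.intro _ (Subgroup.relIndex_mul_relIndex N M G hNM hMG)
    have hcop' : (Nat.card (M ⧸ N')).Coprime (Nat.card (H ⧸ N.subgroupOf H)) := by
      have h1 : Nat.card (M ⧸ N') = N.relIndex M := rfl
      have h2 : Nat.card (H ⧸ N.subgroupOf H) = N.relIndex H := rfl
      rw [h1, h2]
      exact (Nat.Coprime.coprime_dvd_right hdvdM hcop).symm
    have htrans : ∀ x y : X, ∃ a : (M ⧸ N') →* ℂˣ, act a x = y := by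
      intro x y
      have hsum := sum_ne_zero_of_over hNM (Helper35.isChar_of_irr x.1.2)
        (Helper35.isChar_of_irr y.1.2) θ.2 x.2 y.2
      have hsum' : ∑ n : N', (y.1 : M → ℂ) n * conj ((x.1 : M → ℂ) n) ≠ 0 := by
        rw [← Equiv.sum_comp eN.toEquiv] at hsum
        exact hsum
      obtain ⟨l, hl⟩ := lin_transitive N' hab' x.1.2 y.1.2 hsum'
      refine ⟨l, ?_⟩
      apply Subtype.ext
      apply Subtype.ext
      funext g
      exact (hl g).symm
    have hσmul : ∀ (s t : H) (x : X), sg (s * t) x = sg s (sg t x) := by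
      intro s t x
      apply Subtype.ext
      apply Subtype.ext
      show Helper20.conjFun M (x.1 : M → ℂ) (((s * t : H) : Γ)⁻¹) =
        Helper20.conjFun M (Helper20.conjFun M (x.1 : M → ℂ) ((t : Γ)⁻¹)) ((s : Γ)⁻¹)
      rw [Helper20.conjFun_conjFun, Subgroup.coe_mul, mul_inv_rev]
    have hσ0 : ∀ s ∈ N.subgroupOf H, ∀ x : X, sg s x = x := by
      intro s hs x
      apply Subtype.ext
      apply Subtype.ext
      show Helper20.conjFun M (x.1 : M → ℂ) ((s : Γ)⁻¹) = (x.1 : M → ℂ)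
      exact conjFun_self M x.1.2 _ (hNM (N.inv_mem (Subgroup.mem_subgroupOf.mp hs)))
    have hφmul : ∀ (s : H) (a b : (M ⧸ N') →* ℂˣ), ph s (a * b) = ph s a * ph s b := by
      intro s a b
      rfl
    have hcompat : ∀ (s : H) (a : (M ⧸ N') →* ℂˣ) (x : X),
        sg s (act a x) = act (ph s a) (sg s x) := by
      intro s a x
      rfl
    have hθ' : IsIrrCharacter N' (fun a : N' => (θ : N → ℂ) (eN a)) :=
      isIrrCharacter_comp_surj eN.toMonoidHom eN.surjective θ.2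
    obtain ⟨η₀, hη₀, hη₀θ⟩ := Helper20.exists_irr_over N' hθ'
    have hη₀θ' : classInner (fun n : N => η₀ ⟨n, hNM n.2⟩) (θ : N → ℂ) ≠ 0 := by
      rw [← Helper20.classInner_comp_equiv eN]
      exact hη₀θ
    obtain ⟨η, hη⟩ := fixed_point_abelian (N.subgroupOf H) act sg ph (Nat.card (M ⧸ N'))
      hact1 hactmul hexp hcop' htrans hσmul hσ0 hφmul hcompat ⟨⟨η₀, hη₀⟩, hη₀θ'⟩
    have hηinv : ∀ h ∈ H, Helper20.conjFun M (η.1 : M → ℂ) h = η.1 := by
      intro h hh
      have h1 := congrArg (fun x : X => (x.1 : M → ℂ)) (hη ⟨h⁻¹, H.inv_mem hh⟩)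
      have h2 : Helper20.conjFun M (η.1 : M → ℂ) ((h⁻¹)⁻¹) = (η.1 : M → ℂ) := h1
      rwa [inv_inv] at h2
    have hcop2 : (M.relIndex H).Coprime (M.relIndex G) :=
      Nat.Coprime.coprime_dvd_left (Subgroup.relIndex_dvd_of_le_left _ hNM)
        (Nat.Coprime.coprime_dvd_right hdvdG hcop)
    obtain ⟨χ, hχ1, hχ2⟩ := ih M hMG le_sup_right H hcop2 η.1 hηinv
    exact ⟨χ, over_trans hNM hMG (Helper35.isChar_of_irr χ.2) η.1.2 θ.2 hχ1 η.2, hχ2⟩

/-- **Isaacs 13.31, `G/N` solvable**: if `N ≤ G` are normal in `Γ`, `(|Γ : G|, |G : N|) = 1` and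
`G/N` is solvable, every `Γ`-invariant `θ ∈ Irr(N)` lies under a `Γ`-invariant `χ ∈ Irr(G)`. -/
theorem coprime_over_solvable (G N : Subgroup Γ) [hG : G.Normal] [hN : N.Normal] [Fintype N]
    (hNG : N ≤ G) (hcop : (G.index).Coprime (N.relIndex G))
    (hsolv : Group.IsSolvable (G ⧸ N.subgroupOf G)) (θ : IrrCharacter N)
    (hinv : ∀ x : Γ, Helper20.conjFun N (θ : N → ℂ) x = θ) :
    ∃ χ : IrrCharacter G, classInner (fun n : N => (χ : G → ℂ) ⟨n, hNG n.2⟩) (θ : N → ℂ) ≠ 0 ∧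
      ∀ x : Γ, Helper20.conjFun G (χ : G → ℂ) x = χ := by
  classical
  obtain ⟨k, hk⟩ := hsolv.solvable
  have hD : (derivedSeries G k).map G.subtype ≤ N := by
    have h1 : (derivedSeries G k).map (QuotientGroup.mk' (N.subgroupOf G)) = ⊥ := by
      rw [map_derivedSeries_eq (QuotientGroup.mk'_surjective _), hk]
    rw [Subgroup.map_eq_bot_iff, QuotientGroup.ker_mk'] at h1
    rintro _ ⟨y, hy, rfl⟩
    exact Subgroup.mem_subgroupOf.mp (h1 hy)
  let f := QuotientGroup.mk' N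
  have hf : Function.Surjective f := QuotientGroup.mk'_surjective N
  have hkerf : f.ker = N := QuotientGroup.ker_mk' N
  let Gb : Subgroup (Γ ⧸ N) := G.map f
  have hGbn : Gb.Normal := hG.map f hf
  have hcomapbot : (⊥ : Subgroup (Γ ⧸ N)).comap f = N := by rw [MonoidHom.comap_bot, hkerf]
  have hcardGb : Nat.card Gb = N.relIndex G := by
    rw [← Subgroup.relIndex_bot_left, ← Subgroup.relIndex_comap, hcomapbot]
  have hindGb : Gb.index = G.index := Subgroup.index_map_eq _ hf (by rw [hkerf]; exact hNG)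
  obtain ⟨K, hK⟩ := Subgroup.exists_right_complement'_of_coprime (N := Gb)
    (by rw [hcardGb, hindGb]; exact hcop.symm)
  let H : Subgroup Γ := K.comap f
  have hrelH : N.relIndex H = G.index := by
    have h1 : N.relIndex H = Nat.card K := by
      conv_lhs => rw [← hcomapbot]
      rw [Subgroup.relIndex_comap, Subgroup.map_comap_eq_self_of_surjective hf,
        Subgroup.relIndex_bot_left]
    rw [h1, ← hindGb]
    exact (hK.symm.index_eq_card).symm
  obtain ⟨χ, hχ1, hχ2⟩ := coprime_over_aux G k N hNG hD H (by rw [hrelH]; exact hcop) θ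
    (fun h _ => hinv h)
  refine ⟨χ, hχ1, fun x => ?_⟩
  obtain ⟨⟨a, b⟩, hab⟩ := hK.2 (f x)
  obtain ⟨g, hg, hga⟩ := a.2
  have hab' : (a : Γ ⧸ N) * (b : Γ ⧸ N) = f x := hab
  have hmem : g⁻¹ * x ∈ H := by
    show f (g⁻¹ * x) ∈ K
    have h1 : f (g⁻¹ * x) = b.1 := by
      rw [map_mul, map_inv, hga, ← hab', inv_mul_cancel_left]
    rw [h1]
    exact b.2
  have hx : x = g * (g⁻¹ * x) := by group
  rw [hx, ← Helper20.conjFun_conjFun, conjFun_self G χ.2 g hg]
  exact hχ2 _ hmem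

end ClaimA

end Cfsg.Agent.Lib.Helper83
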