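import Mathlib
import Cfsg.Prelude.Def_Blocks
import Cfsg.Agent.Lib.Helper83.Ct2
import Cfsg.Agent.Lib.Helper83.Central
import Cfsg.Agent.Lib.Helper83.Linear
import Cfsg.Agent.Lib.Helper32.Coprime
import Cfsg.Agent.Lib.Helper4.CharDecomp
import Cfsg.Agent.Lib.Helper35.Ind
import Cfsg.Agent.Lib.Helper23.CtBETA
import Cfsg.Agent.Lib.Helper23.CtNORM
import Cfsg.Agent.Lib.Helper94.CtFINA1
import Cfsg.Agent.Lib.Helper43.CtFinA2
import Cfsg.Agent.Lib.Helper79.CtFINA4
import Cfsg.Agent.Lib.Helper55.CtZN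
import Cfsg.Agent.Lib.Helper55.CtCEN
import Cfsg.Agent.Lib.Helper55.CtVAN
import Cfsg.Agent.Lib.Helper55.CtORD
import Cfsg.Agent.Lib.Helper55.CtFQ

set_option autoImplicit false
set_option linter.unusedSectionVars false
set_option linter.style.haveILetI false
set_option linter.unusedVariables false

namespace Cfsg.Agent.Lib.Helper83

open Cfsg Cfsg.Agent.Lib
open scoped ComplexConjugate
open Cfsg.Agent.Lib.Helper23.Ct Cfsg.Agent.Lib.Helper94.Ct Cfsg.Agent.Lib.Helper43.Ct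
  Cfsg.Agent.Lib.Helper79.Ct Cfsg.Agent.Lib.Helper55.Ct

universe u

section step

variable {G : Type*} [Group G] [Finite G] (N : Subgroup G) [N.Normal] [Fintype (G ⧸ N)]
  [DecidableEq (G ⧸ N)] {K₁ : Type*} [Group K₁] [Fintype K₁] {A : Type*} [CommGroup A]
  [Fintype A] [DecidableEq A] [Fintype ((K₁ × A) ≀ᵣ (G ⧸ N))]

/-- the induced character of the wreath product has norm one -/
theorem ct_norm_one (χ₁ : K₁ → ℂ)
    (hχ₁ : ∑ h, χ₁ h * conj (χ₁ h) = (Fintype.card K₁ : ℂ))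
    (β : (G ⧸ N) →* (A →* ℂˣ)) (p : ℕ) (hp : p.Prime) (hC : Nat.card (G ⧸ N) = p)
    (hA : Nat.card A = p) :
    classInner (ctForm χ₁ β (p : ℂ)) (ctForm χ₁ β (p : ℂ)) = 1 := by
  have hCf : Fintype.card (G ⧸ N) = p := by rw [← Nat.card_eq_fintype_card]; exact hC
  have hAf : Fintype.card A = p := by rw [← Nat.card_eq_fintype_card]; exact hA
  haveI : Nonempty (G ⧸ N) := ⟨1⟩
  have hμ : ∀ f : (G ⧸ N) → K₁ × A,
      (∏ y, ((β y (f y).2 : ℂˣ) : ℂ)) * conj (∏ y, ((β y (f y).2 : ℂˣ) : ℂ)) = 1 := by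
    intro f
    have h1 : (∏ y, ((β y (f y).2 : ℂˣ) : ℂ)) ^ p = 1 := by
      rw [← Finset.prod_pow]
      apply Finset.prod_eq_one
      intro y _
      rw [← Units.val_pow_eq_pow_val, ← map_pow, ← hA, pow_card_eq_one', map_one, Units.val_one]
    have h2 : ‖∏ y, ((β y (f y).2 : ℂˣ) : ℂ)‖ = 1 :=
      Complex.norm_eq_one_of_pow_eq_one h1 hp.ne_zero
    rw [Complex.mul_conj, Complex.normSq_eq_norm_sq, h2]
    norm_num
  have hsum := ct_norm_sum (C := G ⧸ N) (A := A) χ₁ hχ₁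
    (fun f => ∏ y, ((β y (f y).2 : ℂˣ) : ℂ)) hμ (p : ℂ) (Complex.conj_natCast p)
  unfold classInner
  rw [wr_sum]
  have hz : ∀ r : G ⧸ N, r ≠ 1 → ∑ f : (G ⧸ N) → K₁ × A,
      ctForm χ₁ β (p : ℂ) ⟨f, r⟩ * conj (ctForm χ₁ β (p : ℂ) ⟨f, r⟩) = 0 := by
    intro r hr
    apply Finset.sum_eq_zero
    intro f _
    rw [ctForm_def, if_neg hr, zero_mul]
  rw [Finset.sum_eq_single (1 : G ⧸ N) (fun r _ hr => hz r hr) (fun h => absurd (Finset.mem_univ _) h)]
  have hone : ∀ f : (G ⧸ N) → K₁ × A, ctForm χ₁ β (p : ℂ) ⟨f, 1⟩ =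
      (if ∏ y, (f y).2 = 1 then (p : ℂ) else 0) * (∏ y, χ₁ (f y).1) *
        ∏ y, ((β y (f y).2 : ℂˣ) : ℂ) := by
    intro f
    rw [ctForm_def, if_pos rfl]
  simp only [hone]
  rw [hsum, RegularWreathProduct.card, Nat.card_prod, hC, hA, hCf, hAf,
    Nat.card_eq_fintype_card]
  have hp0 : (p : ℂ) ≠ 0 := by exact_mod_cast hp.ne_zero
  have hK0 : (Fintype.card K₁ : ℂ) ≠ 0 := by
    exact_mod_cast (Fintype.card_pos (α := K₁)).ne'
  obtain ⟨q, rfl⟩ : ∃ q, p = q + 1 := ⟨p - 1, by have := hp.pos; omega⟩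
  rw [show q + 1 - 1 = q by omega]
  have key : ∀ (Kc P : ℂ), Kc ≠ 0 → P ≠ 0 →
      ((Kc * P) ^ (q + 1) * P)⁻¹ * (P ^ 2 * Kc ^ (q + 1) * P ^ q) = 1 := by
    intro Kc P hK hP
    rw [mul_pow]
    field_simp
    ring
  have h3 := key (Fintype.card K₁ : ℂ) ((q + 1 : ℕ) : ℂ) hK0 hp0
  rw [Nat.cast_mul, Nat.cast_pow, Nat.cast_mul]
  exact h3

theorem isFRam_step (L₁ : Subgroup K₁) (ν₁ : L₁ →* ℂˣ) (Z₁ : Subgroup K₁) (lam₁ : Z₁ →* ℂˣ)
    (F₁ : N → K₁) (m₁ : ℕ) (h₁ : IsFRam L₁ ν₁ Z₁ lam₁ F₁ m₁)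
    (β : (G ⧸ N) →* (A →* ℂˣ)) (p : ℕ) (hp : p.Prime) (hC : Nat.card (G ⧸ N) = p)
    (hA : Nat.card A = p)
    (hβ1 : ∀ a : A, ∑ r : G ⧸ N, ((β r a : ℂˣ) : ℂ) = if a = 1 then (p : ℂ) else 0)
    (hβ2 : ∀ r : G ⧸ N, r ≠ 1 → ∃ a : A, β r a ≠ 1) :
    IsFRam (G := G) (baseK (ctH (A := A) (C := G ⧸ N) L₁))
      (baseLam (ctH L₁) (ctLamq L₁ ν₁ β)) (ctZ Z₁) (ctLam Z₁ lam₁ β) (ctF N F₁)
      (if p ∣ m₁ then m₁ else m₁ * p) := by
  have hval := ct_val' (C := G ⧸ N) L₁ ν₁ β (p : ℂ) hβ1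
  haveI := h₁.normal
  haveI : Fact p.Prime := ⟨hp⟩
  have hidx : N.index = p := by rw [Subgroup.index_eq_card]; exact hC
  have hpG : p ∣ Nat.card G := by rw [← hidx]; exact Subgroup.index_dvd_card N
  have hNG : Nat.card N ∣ Nat.card G := Subgroup.card_subgroup_dvd_card N
  have hm1 : m₁ ∣ (if p ∣ m₁ then m₁ else m₁ * p) := by
    split_ifs
    · exact dvd_rfl
    · exact dvd_mul_right _ _
  have hm2 : p ∣ (if p ∣ m₁ then m₁ else m₁ * p) := by
    split_ifs with h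
    · exact h
    · exact dvd_mul_left _ _
  refine
    { irr := ?_
      normal := ctZ_normal Z₁
      central := ?_
      vanish := ?_
      quasi := ctF_quasi N F₁ Z₁ h₁.quasi
      inj := ctF_inj N F₁ Z₁ h₁.inj
      primes := ?_
      sqf := ?_
      expo := ?_
      ord := ?_ }
  · -- irreducible
    have hchar : IsCharacter ((K₁ × A) ≀ᵣ (G ⧸ N))
        (indFun (baseK (ctH (A := A) (C := G ⧸ N) L₁))
          (fun k => ((baseLam (ctH L₁) (ctLamq L₁ ν₁ β) k : ℂˣ) : ℂ))) :=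
      Helper35.isCharacter_indFun _ (Helper35.isChar_of_irr (isIrr_of_hom _))
    haveI : Fintype (IrrCharacter ((K₁ × A) ≀ᵣ (G ⧸ N))) := Fintype.ofFinite _
    apply Helper4.isIrrCharacter_of_norm_one _ hchar
    rw [hval]
    apply ct_norm_one N _ _ β p hp hC hA
    have h2 := irr_orthonormal (⟨_, h₁.irr⟩ : IrrCharacter K₁) ⟨_, h₁.irr⟩
    rw [if_pos rfl] at h2
    unfold classInner at h2
    have hK0 : (Nat.card K₁ : ℂ) ≠ 0 := by
      exact_mod_cast (Nat.card_pos (α := K₁)).ne'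
    rw [← Nat.card_eq_fintype_card]
    field_simp at h2
    exact h2
  · intro z w
    rw [hval]
    exact ctForm_central _ Z₁ lam₁ β p h₁.central z w
  · intro w hw
    rw [hval]
    exact ctForm_vanish _ Z₁ β p h₁.vanish w hw
  · intro r hr hdvd
    rw [RegularWreathProduct.card, Nat.card_prod, hC, hA] at hdvd
    rcases (Nat.Prime.dvd_mul hr).mp hdvd with h | h
    · rcases (Nat.Prime.dvd_mul hr).mp (hr.dvd_of_dvd_pow h) with h' | h'
      · exact dvd_trans (h₁.primes r hr h') hNG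
      · exact dvd_trans h' hpG
    · exact dvd_trans h hpG
  · split_ifs with h
    · exact h₁.sqf
    · rw [Nat.squarefree_mul ((Nat.Prime.coprime_iff_not_dvd hp).mpr h).symm]
      exact ⟨h₁.sqf, hp.squarefree⟩
  · intro z
    apply ctLam_pow Z₁ lam₁ β
    · intro z₁
      obtain ⟨k, hk⟩ := hm1
      rw [hk, pow_mul, h₁.expo z₁, one_pow]
    · intro a
      obtain ⟨k, hk⟩ := hm2
      rw [hk, pow_mul, ← hA, pow_card_eq_one', one_pow]
  · intro r hr hdvd
    rw [← Subgroup.card_mul_index N, hidx] at hdvd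
    rcases (Nat.Prime.dvd_mul hr).mp hdvd with h | h
    · obtain ⟨z₁, hz₁⟩ := h₁.ord r hr h
      obtain ⟨z, hz⟩ := ctLam_single (A := A) (C := G ⧸ N) Z₁ lam₁ β z₁
      exact ⟨z, by rw [hz]; exact hz₁⟩
    · have hrp : r = p := (Nat.prime_dvd_prime_iff_eq hr hp).mp h
      subst hrp
      have hnt : Nontrivial (G ⧸ N) := by
        rw [← Finite.one_lt_card_iff_nontrivial, hC]
        exact hr.one_lt
      obtain ⟨q₁, hq₁⟩ := exists_ne (1 : G ⧸ N)
      obtain ⟨a, ha⟩ := hβ2 q₁ hq₁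
      obtain ⟨z, hz⟩ := ctLam_pair (A := A) (C := G ⧸ N) Z₁ lam₁ β q₁ hq₁ a
      refine ⟨z, ?_⟩
      rw [hz]
      apply orderOf_eq_prime
      · rw [← map_pow, ← hA, pow_card_eq_one', map_one]
      · exact ha

end step


section final

theorem fram_final {G : Type u} [Group G] [Finite G] {K : Type u} [Group K] [Fintype K]
    (L : Subgroup K) (ν : L →* ℂˣ) (Z : Subgroup K) (lam : Z →* ℂˣ) (F : G → K) (m : ℕ)
    (h : IsFRam L ν Z lam F m) :
    ∃ (H : Type u) (_ : Group H) (_ : Finite H) (χ : Cfsg.IrrCharacter H),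
      (∀ h : H, (χ : H → ℂ) h = (χ : H → ℂ) 1 → h = 1) ∧
      (Cfsg.charDegree (χ : H → ℂ)) ^ 2 = (Subgroup.center H).index ∧
      (∃ f : G →* H ⧸ Subgroup.center H, Function.Injective f) ∧
      (∀ p : ℕ, p.Prime → ((p ∣ Nat.card H ↔ p ∣ Nat.card G) ∧
        (p ∣ Nat.card (Subgroup.center H) ↔ p ∣ Nat.card G))) ∧
      Squarefree (Nat.card (Subgroup.center H)) := by
  haveI := h.normal
  set θ : IrrCharacter K := ⟨_, h.irr⟩ with hθ
  have hcen : ∀ (z : Z) (x : K), (θ : K → ℂ) ((z : K) * x) =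
      ((lam z : ℂˣ) : ℂ) * (θ : K → ℂ) x := h.central
  have hvan : ∀ x : K, x ∉ Z → (θ : K → ℂ) x = 0 := h.vanish
  obtain ⟨ψ, hψirr, hψ⟩ := irr_deflate (irrKer θ) θ.2 (fun x hx => (mem_irrKer θ x).mp hx)
  have hA1 := fin_a1 θ Z lam hcen hvan
  have hA2 := fin_a2 θ Z lam hcen hvan
  have hA4 := fin_a4 θ Z lam hcen (fun g hg => (hA1 g).mp hg)
  have hψ1 : ψ 1 = (θ : K → ℂ) 1 := hψ 1
  -- central elements have exponent dividing m
  have hexp : ∀ c ∈ Subgroup.center (K ⧸ irrKer θ), c ^ m = 1 := by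
    intro c hc
    obtain ⟨g, rfl⟩ := QuotientGroup.mk_surjective c
    have hgZ : g ∈ Z := (hA1 g).mp hc
    rw [← QuotientGroup.mk_pow, QuotientGroup.eq_one_iff]
    exact (fin_a3 θ Z lam hcen ⟨g, hgZ⟩ m).mpr (h.expo ⟨g, hgZ⟩)
  have hHK : Nat.card (K ⧸ irrKer θ) ∣ Nat.card K := Subgroup.card_quotient_dvd_card _
  have hZH : Nat.card (Subgroup.center (K ⧸ irrKer θ)) ∣ Nat.card (K ⧸ irrKer θ) :=
    Subgroup.card_subgroup_dvd_card _
  have hGZ : ∀ p : ℕ, p.Prime → p ∣ Nat.card G →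
      p ∣ Nat.card (Subgroup.center (K ⧸ irrKer θ)) := by
    intro p hp hdvd
    obtain ⟨z, hz⟩ := h.ord p hp hdvd
    have hzc : ((z : K) : K ⧸ irrKer θ) ∈ Subgroup.center (K ⧸ irrKer θ) := (hA1 _).mpr z.2
    have h1 : p ∣ orderOf (((z : K) : K ⧸ irrKer θ)) := by
      rw [← hz]
      apply orderOf_dvd_of_pow_eq_one
      have h2 : (((z : K) : K ⧸ irrKer θ)) ^ orderOf (((z : K) : K ⧸ irrKer θ)) = 1 :=
        pow_orderOf_eq_one _
      rw [← QuotientGroup.mk_pow, QuotientGroup.eq_one_iff] at h2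
      exact (fin_a3 θ Z lam hcen z _).mp h2
    exact dvd_trans h1 (Subgroup.orderOf_dvd_natCard _ hzc)
  refine ⟨K ⧸ irrKer θ, inferInstance, inferInstance, ⟨ψ, hψirr⟩, ?_, ?_, ?_, ?_, ?_⟩
  · intro x hx
    obtain ⟨g, rfl⟩ := QuotientGroup.mk_surjective x
    have hx' : (θ : K → ℂ) g = (θ : K → ℂ) 1 := by
      rw [← hψ g, ← hψ1]; exact hx
    exact (QuotientGroup.eq_one_iff g).mpr ((mem_irrKer θ g).mpr hx')
  · have hdeg : charDegree ψ = charDegree (θ : K → ℂ) := by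
      unfold charDegree
      rw [hψ1]
    have hcomap : (Subgroup.center (K ⧸ irrKer θ)).comap (QuotientGroup.mk' (irrKer θ)) = Z := by
      ext g
      rw [Subgroup.mem_comap]
      exact hA1 g
    have hidx : (Subgroup.center (K ⧸ irrKer θ)).index = Z.index := by
      rw [← hcomap, Subgroup.index_comap_of_surjective _ (QuotientGroup.mk'_surjective _)]
    show charDegree ψ ^ 2 = _
    rw [hidx, hdeg]
    have h3 := Z.card_mul_index
    rw [← hA2, mul_comm] at h3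
    exact (Nat.eq_of_mul_eq_mul_right Nat.card_pos h3).symm
  · let f : G →* (K ⧸ irrKer θ) ⧸ Subgroup.center (K ⧸ irrKer θ) :=
      MonoidHom.mk' (fun g => (((F g : K) : K ⧸ irrKer θ) : _ ⧸ Subgroup.center (K ⧸ irrKer θ)))
        (by
          intro a b
          rw [← QuotientGroup.mk_mul, QuotientGroup.eq, ← QuotientGroup.mk_mul,
            ← QuotientGroup.mk_inv, ← QuotientGroup.mk_mul]
          exact (hA1 _).mpr (h.quasi a b))
    refine ⟨f, ?_⟩
    rw [injective_iff_map_eq_one]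
    intro g hg
    have h1 : ((F g : K) : K ⧸ irrKer θ) ∈ Subgroup.center (K ⧸ irrKer θ) :=
      (QuotientGroup.eq_one_iff _).mp hg
    exact h.inj g ((hA1 _).mp h1)
  · intro p hp
    have hHG : p ∣ Nat.card (K ⧸ irrKer θ) → p ∣ Nat.card G :=
      fun hd => h.primes p hp (dvd_trans hd hHK)
    exact ⟨⟨hHG, fun hd => dvd_trans (hGZ p hp hd) hZH⟩,
      ⟨fun hd => hHG (dvd_trans hd hZH), hGZ p hp⟩⟩
  · obtain ⟨c, hc⟩ := hA4.exists_generator
    have hcard : Nat.card (Subgroup.center (K ⧸ irrKer θ)) = orderOf c :=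
      (orderOf_eq_card_of_forall_mem_zpowers hc).symm
    rw [hcard]
    apply Squarefree.squarefree_of_dvd _ h.sqf
    apply orderOf_dvd_of_pow_eq_one
    apply Subtype.ext
    rw [Subgroup.coe_pow]
    exact hexp c.1 c.2

end final

section main

theorem fram_trivial (G : Type u) [Group G] [Subsingleton G] :
    ∃ (K : Type u) (_ : Group K) (_ : Fintype K) (L : Subgroup K) (ν : L →* ℂˣ)
      (Z : Subgroup K) (lam : Z →* ℂˣ) (F : G → K) (m : ℕ), IsFRam L ν Z lam F m := by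
  have hcard : Nat.card PUnit.{u + 1} = 1 := Nat.card_unique
  have hG : Nat.card G = 1 := Nat.card_unique
  have hval : indFun (⊤ : Subgroup PUnit.{u + 1}) (fun l => (((1 : (⊤ : Subgroup PUnit.{u + 1}) →* ℂˣ) l : ℂˣ) : ℂ)) =
      fun g => (((1 : PUnit.{u + 1} →* ℂˣ) g : ℂˣ) : ℂ) := by
    funext g
    have hg : g = 1 := Subsingleton.elim _ _
    rw [hg, Helper35.indFun_one_eq, Subgroup.index_top]
    simp
  refine ⟨PUnit.{u + 1}, inferInstance, inferInstance, ⊤, 1, ⊤, 1, fun _ => 1, 1, ?_⟩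
  refine
    { irr := ?_
      normal := inferInstance
      central := ?_
      vanish := ?_
      quasi := fun _ _ => Subgroup.mem_top _
      inj := fun g _ => Subsingleton.elim _ _
      primes := ?_
      sqf := squarefree_one
      expo := fun z => by simp
      ord := ?_ }
  · rw [hval]
    exact isIrr_of_hom 1
  · intro z x
    have : (z : PUnit.{u + 1}) * x = x := Subsingleton.elim _ _
    rw [this]
    simp
  · intro x hx
    exact absurd (Subgroup.mem_top x) hx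
  · intro r hr hdvd
    rw [hcard] at hdvd
    exact absurd (Nat.dvd_one.mp hdvd) hr.ne_one
  · intro r hr hdvd
    rw [hG] at hdvd
    exact absurd (Nat.dvd_one.mp hdvd) hr.ne_one

theorem exists_fram : ∀ (n : ℕ) (G : Type u) [Group G] [Finite G], Group.IsSolvable G →
    Nat.card G = n →
    ∃ (K : Type u) (_ : Group K) (_ : Fintype K) (L : Subgroup K) (ν : L →* ℂˣ)
      (Z : Subgroup K) (lam : Z →* ℂˣ) (F : G → K) (m : ℕ), IsFRam L ν Z lam F m := by
  intro n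
  induction n using Nat.strong_induction_on with
  | _ n ih =>
    intro G _ _ hsolv hn
    by_cases hsub : Subsingleton G
    · exact fram_trivial G
    · have hnt : Nontrivial G := not_subsingleton_iff_nontrivial.mp hsub
      obtain ⟨N, p, hNn, hp, hidx⟩ := Helper32.exists_normal_prime_index G
      haveI := hNn
      haveI : Fact p.Prime := ⟨hp⟩
      have hcardN : Nat.card N < n := by
        have h1 := N.card_mul_index
        rw [hidx, hn] at h1
        have h2 : 0 < Nat.card N := Nat.card_pos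
        have h3 := hp.two_le
        nlinarith
      have hsolvN : Group.IsSolvable N := inferInstance
      obtain ⟨K₁, _, _, L₁, ν₁, Z₁, lam₁, F₁, m₁, h₁⟩ := ih (Nat.card N) hcardN N hsolvN rfl
      classical
      letI : Fintype (G ⧸ N) := Fintype.ofFinite _
      haveI : NeZero p := ⟨hp.ne_zero⟩
      letI : Fintype ((K₁ × Multiplicative (ZMod p)) ≀ᵣ (G ⧸ N)) := Fintype.ofFinite _
      have hC : Nat.card (G ⧸ N) = p := by rw [← Subgroup.index_eq_card]; exact hidx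
      have hA : Nat.card (Multiplicative (ZMod p)) = p :=
        (Nat.card_congr Multiplicative.toAdd).trans (Nat.card_zmod p)
      obtain ⟨β, hβ1, hβ2⟩ := ct_beta (C := G ⧸ N) p hC
      exact ⟨(K₁ × Multiplicative (ZMod p)) ≀ᵣ (G ⧸ N), inferInstance, inferInstance, _, _, _, _, _,
        _, isFRam_step N L₁ ν₁ Z₁ lam₁ F₁ m₁ h₁ β p hp hC hA hβ1 hβ2⟩

theorem main_result {G : Type u} [Group G] [Finite G] (hsolv : Group.IsSolvable G) :
    ∃ (H : Type u) (_ : Group H) (_ : Finite H) (χ : Cfsg.IrrCharacter H),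
      (∀ h : H, (χ : H → ℂ) h = (χ : H → ℂ) 1 → h = 1) ∧
      (Cfsg.charDegree (χ : H → ℂ)) ^ 2 = (Subgroup.center H).index ∧
      (∃ f : G →* H ⧸ Subgroup.center H, Function.Injective f) ∧
      (∀ p : ℕ, p.Prime → ((p ∣ Nat.card H ↔ p ∣ Nat.card G) ∧
        (p ∣ Nat.card (Subgroup.center H) ↔ p ∣ Nat.card G))) ∧
      Squarefree (Nat.card (Subgroup.center H)) := by
  obtain ⟨K, _, _, L, ν, Z, lam, F, m, h⟩ := exists_fram (Nat.card G) G hsolv rfl
  exact fram_final L ν Z lam F m h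

end main

end Cfsg.Agent.Lib.Helper83
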