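import Mathlib
import Cfsg.Agent.Lib.Helper83.Dl2

set_option autoImplicit false

/-! The derived length of a Sylow `p`-subgroup of a `p`-solvable group is at most one more than
the number of irreducible characters of degree divisible by `p`. -/

namespace Cfsg.Agent.Lib.Helper83

open Cfsg Cfsg.Agent.Lib
open scoped ComplexConjugate

universe u

/-- if all characters of degree divisible by `p` are trivial on the nontrivial abelian normal
`p`-subgroup `A`, then the Sylow `p`-subgroups are abelian modulo `A` -/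
theorem dl_step {G : Type u} [Group G] [Finite G] (p : ℕ) [Fact p.Prime]
    (hsolv : IsPSolvable p G) (A : Subgroup G) [hA : A.Normal] (hAp : IsPGroup p A)
    (hAne : A ≠ ⊥) (hAab : ∀ a ∈ A, ∀ b ∈ A, a * b = b * a)
    (hgood : ∀ χ : G → ℂ, IsIrrCharacter G χ → p ∣ charDegree χ → ∀ a ∈ A, χ a = χ 1)
    (P : Sylow p G) :
    ∀ x ∈ (P : Subgroup G), ∀ y ∈ (P : Subgroup G), x * y * x⁻¹ * y⁻¹ ∈ A := by
  classical
  let _ : Fintype G := Fintype.ofFinite _
  let _ : Fintype A := Fintype.ofFinite _
  have hAc : IsMulCommutative A := ⟨⟨fun a b => Subtype.ext (hAab a a.2 b b.2)⟩⟩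
  have hex : ∃ θ : A → ℂ, IsIrrCharacter A θ ∧ θ ≠ fun _ => 1 := by
    by_contra hcon
    push Not at hcon
    have hsub : Subsingleton (IrrCharacter A) :=
      ⟨fun a b => Subtype.ext (by rw [hcon a a.2, hcon b b.2])⟩
    have := Helper4.irr_finite (G := A)
    have h1 : Nat.card (IrrCharacter A) = Nat.card A := card_irr_comm
    have h2 : Nat.card A ≤ 1 := by
      rw [← h1]
      exact Finite.card_le_one_iff_subsingleton.mpr hsub
    have h3 := (Subgroup.one_lt_card_iff_ne_bot A).mpr hAne
    omega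
  obtain ⟨θ, hθ, hθne⟩ := hex
  have hθ1 : θ 1 = 1 := irr_comm_degree hθ
  have hAT : A ≤ inertia A θ := le_inertia A hθ
  let _ : Fintype (inertia A θ) := Fintype.ofFinite _
  have hkey : ∀ ψ : inertia A θ → ℂ, IsIrrCharacter (inertia A θ) ψ →
      (∀ a : A, ψ ⟨(a : G), hAT a.2⟩ = ψ 1 * θ a) →
      ¬ p ∣ (inertia A θ).index ∧ ¬ p ∣ charDegree ψ := by
    intro ψ hψ hres
    have hcon : classInner (fun n : A => ψ ⟨(n : G), hAT n.2⟩) θ ≠ 0 := by
      have h1 : (fun n : A => ψ ⟨(n : G), hAT n.2⟩) = (ψ 1) • θ := funext hres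
      rw [h1, classInner_smul_left, Helper35.classInner_irr' hθ hθ, if_pos rfl, mul_one]
      exact irr_one_ne_zero hψ
    have hirr := (clifford_ind A hθ (inertia A θ) (fun g => mem_inertia A θ g) hAT hψ hcon).1
    have hd1 : indFun (inertia A θ) ψ 1 = ((inertia A θ).index : ℂ) * ψ 1 :=
      Helper35.indFun_one_eq (inertia A θ) ψ
    have hdeg : charDegree (indFun (inertia A θ) ψ) = (inertia A θ).index * charDegree ψ := by
      have h2 : ((charDegree (indFun (inertia A θ) ψ) : ℕ) : ℂ) =
          (((inertia A θ).index * charDegree ψ : ℕ) : ℂ) := by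
        rw [← (irr_degree hirr).2, hd1, (irr_degree hψ).2]
        push_cast
        rfl
      exact_mod_cast h2
    have hnb : ¬ p ∣ charDegree (indFun (inertia A θ) ψ) := by
      intro hbad
      have htriv := hgood _ hirr hbad
      have hcf : IsClassFunction G (indFun (inertia A θ) ψ) :=
        Helper35.isClassFunction_of_isCharacter (Helper35.isChar_of_irr hirr)
      have hfr := Helper35.frobenius_reciprocity' (inertia A θ) ψ (indFun (inertia A θ) ψ) hcf
      rw [Helper35.classInner_irr' hirr hirr, if_pos rfl] at hfr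
      have h5 : classInner (Helper35.res (inertia A θ) (indFun (inertia A θ) ψ)) ψ ≠ 0 := by
        rw [← hfr]
        exact one_ne_zero
      have h6 := const_trans (Subgroup.inclusion hAT)
        (Helper35.isCharacter_res (inertia A θ) (Helper35.isChar_of_irr hirr)) hψ h5
        (Helper35.isChar_of_irr hθ) hcon
      have h7 : (fun h : A => Helper35.res (inertia A θ) (indFun (inertia A θ) ψ)
          (Subgroup.inclusion hAT h)) =
          (indFun (inertia A θ) ψ 1) • (fun _ : A => (1 : ℂ)) := by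
        funext a
        rw [Pi.smul_apply, smul_eq_mul, mul_one]
        exact htriv a a.2
      rw [h7, classInner_smul_left] at h6
      have h8 := right_ne_zero_of_mul h6
      rw [Helper35.classInner_irr' isIrr_one hθ] at h8
      apply hθne
      by_contra h
      rw [if_neg (fun h' => h h'.symm)] at h8
      exact h8 rfl
    rw [hdeg] at hnb
    exact ⟨fun h => hnb (Dvd.dvd.mul_right h _), fun h => hnb (Dvd.dvd.mul_left h _)⟩
  let e : A.subgroupOf (inertia A θ) ≃* A := Subgroup.subgroupOfEquivOfLe hAT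
  have he : ∀ a' : A.subgroupOf (inertia A θ), ((e a' : A) : G) = ((a' : inertia A θ) : G) :=
    fun a' => Subgroup.subgroupOfEquivOfLe_apply_coe hAT a'
  have hθ' : IsIrrCharacter (A.subgroupOf (inertia A θ)) (fun n => θ (e n)) :=
    Helper20.irr_comp_surjective e.toMonoidHom e.surjective hθ
  have hinv' : pcInv (A.subgroupOf (inertia A θ)) (fun n => θ (e n)) := by
    intro t a'
    have h1 := (mem_inertia A θ (t : G)).mp t.2
    have h2 := congrFun h1 (e a')
    rw [Helper20.conjFun_apply] at h2
    show θ (e _) = θ (e a')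
    rw [← h2]
    apply congrArg θ
    apply Subtype.ext
    rw [he]
    show (t : G) * ((a' : inertia A θ) : G) * (t : G)⁻¹ = (t : G) * ((e a' : A) : G) * (t : G)⁻¹
    rw [he]
  have hkey' : ∀ ψ : inertia A θ → ℂ, IsIrrCharacter (inertia A θ) ψ →
      (∀ a' : A.subgroupOf (inertia A θ), ψ a' = ψ 1 * (fun n => θ (e n)) a') →
      ¬ p ∣ (inertia A θ).index ∧ ¬ p ∣ charDegree ψ := by
    intro ψ hψ hres
    apply hkey ψ hψ
    intro a
    have hmem : (⟨(a : G), hAT a.2⟩ : inertia A θ) ∈ A.subgroupOf (inertia A θ) :=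
      Subgroup.mem_subgroupOf.mpr a.2
    have h1 := hres ⟨⟨(a : G), hAT a.2⟩, hmem⟩
    have h2 : e ⟨⟨(a : G), hAT a.2⟩, hmem⟩ = a := Subtype.ext (he _)
    simp only [h2] at h1
    exact h1
  have hTidx : ¬ p ∣ (inertia A θ).index := by
    let _ : Fintype (A.subgroupOf (inertia A θ)) := Fintype.ofFinite _
    obtain ⟨ψ, hψ, hcon⟩ := Helper20.exists_irr_over (A.subgroupOf (inertia A θ)) hθ'
    have hθ'1 : (fun n => θ (e n)) (1 : A.subgroupOf (inertia A θ)) = 1 := by
      show θ (e 1) = 1
      rw [map_one]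
      exact hθ1
    exact (hkey' ψ hψ (inv_res (A.subgroupOf (inertia A θ)) hθ' hθ'1 hinv' hψ hcon)).1
  obtain ⟨P₀, hP₀⟩ := Helper81.exists_sylow_le_of_not_dvd_index p (inertia A θ) hTidx
  have hA'p : IsPGroup p (A.subgroupOf (inertia A θ)) := hAp.comap_subtype
  have hA'ab : ∀ a ∈ A.subgroupOf (inertia A θ), ∀ b ∈ A.subgroupOf (inertia A θ),
      a * b = b * a := by
    intro a ha b hb
    exact Subtype.ext (hAab a ha b hb)
  have hX := dl_rel_ito p (psolv_subgroup hsolv (inertia A θ)) (A.subgroupOf (inertia A θ))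
    hA'p hA'ab hθ' hinv' (fun ψ hψ hres => (hkey' ψ hψ hres).2) (P₀.subtype hP₀)
  obtain ⟨g, rfl⟩ := MulAction.exists_smul_eq G P₀ P
  intro x hx y hy
  rw [Sylow.coe_subgroup_smul, Subgroup.mem_pointwise_smul_iff_inv_smul_mem] at hx hy
  have hx1 : g⁻¹ * x * g ∈ (P₀ : Subgroup G) := by
    have h1 : (MulAut.conj g)⁻¹ • x = g⁻¹ * x * g := by
      simp [MulAut.smul_def]
    rwa [h1] at hx
  have hy1 : g⁻¹ * y * g ∈ (P₀ : Subgroup G) := by
    have h1 : (MulAut.conj g)⁻¹ • y = g⁻¹ * y * g := by
      simp [MulAut.smul_def]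
    rwa [h1] at hy
  have h9 := hX ⟨g⁻¹ * x * g, hP₀ hx1⟩ (Subgroup.mem_subgroupOf.mpr hx1)
    ⟨g⁻¹ * y * g, hP₀ hy1⟩ (Subgroup.mem_subgroupOf.mpr hy1)
  have h10 : (g⁻¹ * x * g) * (g⁻¹ * y * g) * (g⁻¹ * x * g)⁻¹ * (g⁻¹ * y * g)⁻¹ ∈ A := h9
  have h11 := hA.conj_mem _ h10 g
  have h12 : g * ((g⁻¹ * x * g) * (g⁻¹ * y * g) * (g⁻¹ * x * g)⁻¹ * (g⁻¹ * y * g)⁻¹) * g⁻¹ =
      x * y * x⁻¹ * y⁻¹ := by group
  rwa [h12] at h11

/-- the derived length of a Sylow `p`-subgroup of a `p`-solvable group -/
theorem dl_main (p : ℕ) [Fact p.Prime] : ∀ (n : ℕ) (G : Type u) [Group G] [Finite G],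
    Nat.card G = n → IsPSolvable p G → ∀ P : Sylow p G,
    derivedSeries ↥(P : Subgroup G)
      (Nat.card {χ : IrrCharacter G // p ∣ charDegree (χ : G → ℂ)} + 1) = ⊥ := by
  intro n
  induction n using Nat.strong_induction_on with
  | _ n ih =>
    intro G _ _ hcard hsolv P
    classical
    let _ : Fintype G := Fintype.ofFinite _
    have hfin := Helper4.irr_finite (G := G)
    by_cases hb0 : Nat.card {χ : IrrCharacter G // p ∣ charDegree (χ : G → ℂ)} = 0
    · -- Itô
      rw [hb0]
      have hemp : IsEmpty {χ : IrrCharacter G // p ∣ charDegree (χ : G → ℂ)} :=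
        Finite.card_eq_zero_iff.mp hb0
      have hdeg : ∀ χ : IrrCharacter G, ¬ p ∣ charDegree (χ : G → ℂ) :=
        fun χ h => hemp.false ⟨χ, h⟩
      obtain ⟨-, hcomm⟩ := (Helper84.ito_michler_psolvable p hsolv P).mpr hdeg
      exact dl_of_le_abelian ⊤ (fun a _ b _ => hcomm.is_comm.comm a b) 0 le_top
    · by_cases htriv : Subsingleton G
      · rw [eq_bot_iff]
        intro x _
        rw [Subgroup.mem_bot]
        exact Subsingleton.elim _ _
      · have hnt : Nontrivial G := not_subsingleton_iff_nontrivial.mp htriv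
        obtain ⟨N, hNn, hNne, hN⟩ := dl_exists_normal p hsolv
        have hlt : Nat.card (G ⧸ N) < n := by
          have h1 := Subgroup.card_mul_index N
          have h2 := (Subgroup.one_lt_card_iff_ne_bot N).mpr hNne
          have h3 : 0 < N.index := Nat.pos_of_ne_zero Subgroup.index_ne_zero_of_finite
          rw [← Subgroup.index_eq_card, ← hcard, ← h1]
          nlinarith
        have hsolvQ : IsPSolvable p (G ⧸ N) := Helper75.Fratt.isPSolvable_quotient N hsolv
        have hIH := ih _ hlt (G ⧸ N) rfl hsolvQ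
          (P.mapSurjective (QuotientGroup.mk'_surjective N))
        have hle := dl_bad_le p N
        have h1 := dl_quot p N P _ hIH
        rcases hN with hcop | ⟨hNp, hNab⟩
        · have h2 : derivedSeries ↥(P : Subgroup G)
              (Nat.card {χ : IrrCharacter (G ⧸ N) // p ∣ charDegree (χ : G ⧸ N → ℂ)} + 1) = ⊥ := by
            rw [eq_bot_iff]
            intro x hx
            rw [Subgroup.mem_bot]
            exact Subtype.ext (pc_inf p N P hcop (h1 x hx) x.2)
          exact dl_mono h2 (by omega)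
        · have hab' : ∀ a ∈ N.subgroupOf (P : Subgroup G), ∀ b ∈ N.subgroupOf (P : Subgroup G),
              a * b = b * a := by
            intro a ha b hb
            exact Subtype.ext (hNab a ha b hb)
          have h2 : derivedSeries ↥(P : Subgroup G)
              (Nat.card {χ : IrrCharacter (G ⧸ N) // p ∣ charDegree (χ : G ⧸ N → ℂ)} + 1 + 1) =
                ⊥ :=
            dl_of_le_abelian (N.subgroupOf (P : Subgroup G)) hab' _
              (fun x hx => Subgroup.mem_subgroupOf.mpr (h1 x hx))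
          rcases Nat.lt_or_ge
            (Nat.card {χ : IrrCharacter (G ⧸ N) // p ∣ charDegree (χ : G ⧸ N → ℂ)})
            (Nat.card {χ : IrrCharacter G // p ∣ charDegree (χ : G → ℂ)}) with hlt' | hge
          · exact dl_mono h2 (by omega)
          · have hgood : ∀ χ : G → ℂ, IsIrrCharacter G χ → p ∣ charDegree χ →
                ∀ a ∈ N, χ a = χ 1 := fun χ hχ hbad => dl_bad_eq p N hge hχ hbad
            have h3 := dl_step p hsolv N hNp hNne hNab hgood P
            have h4 : derivedSeries ↥(P : Subgroup G) 1 ≤ N.subgroupOf (P : Subgroup G) := by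
              rw [derivedSeries_succ, derivedSeries_zero]
              have hnorm : (N.subgroupOf (P : Subgroup G)).Normal := hNn.subgroupOf _
              rw [Subgroup.commutator_le]
              intro x _ y _
              rw [Subgroup.mem_subgroupOf]
              exact h3 x x.2 y y.2
            have h5 : derivedSeries ↥(P : Subgroup G) 2 = ⊥ :=
              dl_of_le_abelian (N.subgroupOf (P : Subgroup G)) hab' 1 h4
            exact dl_mono h5 (by omega)

end Cfsg.Agent.Lib.Helper83
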