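import Mathlib
import Cfsg.Prelude.Def_Blocks
import Cfsg.Agent.Lib.Helper80.EV
import Cfsg.Agent.Lib.Helper83.Ortho

set_option autoImplicit false
set_option linter.unusedSectionVars false
set_option linter.style.haveILetI false
set_option linter.unusedVariables false

namespace Cfsg.Agent.Lib.Helper83.T23

open Cfsg Cfsg.Agent.Lib Finset
open scoped ComplexConjugate

/-- eigenvalue multiplicities at a power of `g` for an irreducible character -/
theorem irr_pow_eq {G : Type*} [Group G] (N : ℕ) (hN : 0 < N) (ζ : ℂ) (hζ : IsPrimitiveRoot ζ N)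
    (g : G) (hg : g ^ N = 1) (χ : IrrCharacter G) :
    ∃ m : ℕ → ℕ, ∀ k : ℕ, (χ : G → ℂ) (g ^ k) = ∑ j ∈ range N, (m j : ℂ) * (ζ ^ j) ^ k := by
  obtain ⟨n, ρ, hρ, hχ⟩ := χ.2
  obtain ⟨mult, hm⟩ := Helper80.character_pow_eq ρ g N hN hg ζ hζ
  exact ⟨mult, fun k => by rw [← hχ]; exact hm k⟩

/-- geometric sum of the `N`-th root of unity `ζ ^ l * ζ⁻¹` -/
theorem geom_root (N : ℕ) (hN : 1 < N) (ζ : ℂ) (hζ : IsPrimitiveRoot ζ N) (l : ℕ) (hl : l < N) :
    ∑ j ∈ range N, (ζ⁻¹) ^ j * (ζ ^ l) ^ j = if l = 1 then (N : ℂ) else 0 := by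
  have hζ0 : ζ ≠ 0 := hζ.ne_zero (by omega)
  have h1 : ∀ j : ℕ, (ζ⁻¹) ^ j * (ζ ^ l) ^ j = (ζ⁻¹ * ζ ^ l) ^ j := fun j => (mul_pow _ _ _).symm
  simp only [h1]
  split_ifs with h
  · subst h
    rw [pow_one, inv_mul_cancel₀ hζ0]
    simp
  · set μ := ζ⁻¹ * ζ ^ l with hμ
    have hμN : μ ^ N = 1 := by
      rw [hμ, mul_pow, inv_pow, hζ.pow_eq_one, inv_one, one_mul, ← pow_mul, mul_comm, pow_mul,
        hζ.pow_eq_one, one_pow]
    have hμ1 : μ ≠ 1 := by
      intro hcon
      have h2 : ζ ^ l = ζ ^ 1 := by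
        rw [pow_one]
        have : ζ * μ = ζ := by rw [hcon, mul_one]
        rw [hμ, ← mul_assoc, mul_inv_cancel₀ hζ0, one_mul] at this
        exact this
      exact h (hζ.pow_inj hl hN h2)
    have h3 := geom_sum_mul μ N
    rw [hμN, sub_self] at h3
    rcases mul_eq_zero.mp h3 with h4 | h4
    · exact h4
    · exact absurd (sub_eq_zero.mp h4) hμ1

theorem b3 {G : Type*} [Group G] [Finite G] (N : ℕ) (hN : 1 < N) (ζ : ℂ)
    (hζ : IsPrimitiveRoot ζ N) (g : G) (i : ℕ) (ho : orderOf g = N) (hi : g ^ i ≠ g)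
    (hconj : ∀ (x : G) (j : ℕ), x * g * x⁻¹ = g ^ j → g ^ j = g ∨ g ^ j = g ^ i)
    (hci : ∃ t : G, t * g * t⁻¹ = g ^ i) :
    ζ + ζ ^ i ∈
      IntermediateField.adjoin ℚ {z : ℂ | ∃ χ : IrrCharacter G, (χ : G → ℂ) g = z} := by
  classical
  have := Fintype.ofFinite G
  have := Fintype.ofFinite (IrrCharacter G)
  have hN0 : 0 < N := by omega
  have hζ0 : ζ ≠ 0 := hζ.ne_zero (by omega)
  have hgN : g ^ N = 1 := by rw [← ho]; exact pow_orderOf_eq_one g
  have hconjζ : conj ζ = ζ⁻¹ := by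
    apply eq_inv_of_mul_eq_one_right
    rw [Complex.mul_conj, Complex.normSq_eq_norm_sq, hζ.norm'_eq_one (by omega)]
    norm_num
  choose m hm using fun χ : IrrCharacter G => irr_pow_eq N hN0 ζ hζ g hgN χ
  set c : ℕ := Nat.card (Subgroup.centralizer ({g} : Set G)) with hc
  have hc0 : (c : ℂ) ≠ 0 := by
    have : 0 < c := Nat.card_pos
    exact_mod_cast this.ne'
  have hiN : i % N < N := Nat.mod_lt _ hN0
  have hi1 : i % N ≠ 1 := by
    intro h
    apply hi
    rw [← pow_mod_orderOf, ho, h, pow_one]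
  -- conjugacy criterion
  have hcrit : ∀ j ∈ range N, (IsConj g (g ^ j) ↔ (j = 1 ∨ j = i % N)) := by
    intro j hj
    rw [mem_range] at hj
    constructor
    · intro h
      obtain ⟨x, hx⟩ := isConj_iff.mp h
      rcases hconj x j hx with h1 | h1
      · left
        have h2 : g ^ j = g ^ 1 := by rw [pow_one]; exact h1
        rw [pow_eq_pow_iff_modEq, ho] at h2
        have := Nat.ModEq.eq_of_lt_of_lt h2 hj hN
        exact this
      · right
        rw [pow_eq_pow_iff_modEq, ho] at h1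
        have h3 : j ≡ i % N [MOD N] := h1.trans (Nat.mod_modEq i N).symm
        exact Nat.ModEq.eq_of_lt_of_lt h3 hj hiN
    · rintro (h | h)
      · rw [h, pow_one]
      · obtain ⟨t, ht⟩ := hci
        rw [h, ← ho, pow_mod_orderOf]
        exact isConj_iff.mpr ⟨t, ht⟩
  -- the double sum, first way
  have hA : ∑ j ∈ range N, (ζ⁻¹) ^ j *
      ∑ χ : IrrCharacter G, (χ : G → ℂ) (g ^ j) * conj ((χ : G → ℂ) g) =
      (c : ℂ) * (ζ⁻¹ + (ζ⁻¹) ^ i) := by
    have h1 : ∀ j ∈ range N, (ζ⁻¹) ^ j *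
        ∑ χ : IrrCharacter G, (χ : G → ℂ) (g ^ j) * conj ((χ : G → ℂ) g) =
        (if j = 1 then (c : ℂ) * ζ⁻¹ else 0) + (if j = i % N then (c : ℂ) * (ζ⁻¹) ^ i else 0) := by
      intro j hj
      rw [Helper83.column_orthogonality (g ^ j) g]
      by_cases hcj : IsConj g (g ^ j)
      · rw [if_pos hcj]
        rcases (hcrit j hj).mp hcj with h | h
        · rw [if_pos h, if_neg (by rw [h]; exact fun h' => hi1 h'.symm), h, pow_one, add_zero,
            mul_comm]
        · rw [if_neg (by rw [h]; exact hi1), if_pos h, zero_add, h, mul_comm]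
          congr 1
          have hz : (ζ⁻¹) ^ N = 1 := by rw [inv_pow, hζ.pow_eq_one, inv_one]
          conv_rhs => rw [← Nat.div_add_mod i N, pow_add, pow_mul, hz, one_pow, one_mul]
      · rw [if_neg hcj, mul_zero]
        have h2 := (hcrit j hj).not.mp hcj
        push Not at h2
        rw [if_neg h2.1, if_neg h2.2, add_zero]
    rw [Finset.sum_congr rfl h1, Finset.sum_add_distrib, Finset.sum_ite_eq' (range N) 1,
      Finset.sum_ite_eq' (range N) (i % N), if_pos (mem_range.mpr hN), if_pos (mem_range.mpr hiN)]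
    ring
  -- second way
  have hB : ∑ j ∈ range N, (ζ⁻¹) ^ j *
      ∑ χ : IrrCharacter G, (χ : G → ℂ) (g ^ j) * conj ((χ : G → ℂ) g) =
      ∑ χ : IrrCharacter G, conj ((χ : G → ℂ) g) * ((N : ℂ) * (m χ 1 : ℂ)) := by
    simp only [Finset.mul_sum]
    rw [Finset.sum_comm]
    refine Finset.sum_congr rfl fun χ _ => ?_
    have h2 : ∀ j ∈ range N, (ζ⁻¹) ^ j * ((χ : G → ℂ) (g ^ j) * conj ((χ : G → ℂ) g)) =
        conj ((χ : G → ℂ) g) * ∑ l ∈ range N, (m χ l : ℂ) * ((ζ⁻¹) ^ j * (ζ ^ l) ^ j) := by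
      intro j _
      rw [hm χ j, Finset.mul_sum, Finset.sum_mul, Finset.mul_sum]
      refine Finset.sum_congr rfl fun l _ => ?_
      ring
    rw [Finset.sum_congr rfl h2, ← Finset.mul_sum, Finset.sum_comm]
    congr 1
    have h3 : ∀ l ∈ range N, ∑ j ∈ range N, (m χ l : ℂ) * ((ζ⁻¹) ^ j * (ζ ^ l) ^ j) =
        if l = 1 then (N : ℂ) * (m χ 1 : ℂ) else 0 := by
      intro l hl
      rw [← Finset.mul_sum, geom_root N hN ζ hζ l (mem_range.mp hl)]
      split_ifs with h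
      · rw [h, mul_comm]
      · rw [mul_zero]
    rw [Finset.sum_congr rfl h3, Finset.sum_ite_eq' (range N) 1, if_pos (mem_range.mpr hN)]
  have hmain : (c : ℂ) * (ζ + ζ ^ i) =
      ∑ χ : IrrCharacter G, (χ : G → ℂ) g * ((N : ℂ) * (m χ 1 : ℂ)) := by
    have h1 := hA.symm.trans hB
    have h2 := congrArg conj h1
    rw [map_mul, map_add, map_pow, map_inv₀, hconjζ, inv_inv, Complex.conj_natCast, map_sum] at h2
    rw [h2]
    refine Finset.sum_congr rfl fun χ _ => ?_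
    rw [map_mul, Complex.conj_conj, map_mul, Complex.conj_natCast, Complex.conj_natCast]
  have hfin : ζ + ζ ^ i = (c : ℂ)⁻¹ *
      ∑ χ : IrrCharacter G, (χ : G → ℂ) g * ((N : ℂ) * (m χ 1 : ℂ)) := by
    rw [← hmain, ← mul_assoc, inv_mul_cancel₀ hc0, one_mul]
  rw [hfin]
  apply mul_mem
  · exact inv_mem (IntermediateField.natCast_mem _ _)
  · apply sum_mem
    intro χ _
    apply mul_mem
    · exact IntermediateField.subset_adjoin ℚ _ ⟨χ, rfl⟩
    · exact mul_mem (IntermediateField.natCast_mem _ _) (IntermediateField.natCast_mem _ _)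

end Cfsg.Agent.Lib.Helper83.T23
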