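import Mathlib
import Cfsg.Prelude.Def_Blocks
import Cfsg.Agent.Lib.Helper80.EV
import Cfsg.Agent.Lib.Helper83.IrrBasic
import Cfsg.Agent.Lib.Helper83.T23B3

set_option autoImplicit false
set_option linter.unusedSectionVars false
set_option linter.style.haveILetI false
set_option linter.unusedVariables false

namespace Cfsg.Agent.Lib.Helper83.T23

open Cfsg Cfsg.Agent.Lib Finset

/-- power sums of `ζ` and `η` lie in `ℚ(ζ + η)` when `ζ * η = ε` is rational -/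
theorem pow_sum_mem (ζ η ε : ℂ) (hε : ε = 1 ∨ ε = -1) (hprod : ζ * η = ε) (l : ℕ) :
    ζ ^ l + η ^ l ∈ IntermediateField.adjoin ℚ ({ζ + η} : Set ℂ) := by
  have hw : ζ + η ∈ IntermediateField.adjoin ℚ ({ζ + η} : Set ℂ) :=
    IntermediateField.subset_adjoin ℚ _ (Set.mem_singleton _)
  have hεm : ε ∈ IntermediateField.adjoin ℚ ({ζ + η} : Set ℂ) := by
    rcases hε with h | h
    · rw [h]; exact one_mem _
    · rw [h]; exact neg_mem (one_mem _)
  induction l using Nat.strong_induction_on with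
  | _ l ih =>
    match l, ih with
    | 0, _ =>
      have : ζ ^ 0 + η ^ 0 = ((2 : ℕ) : ℂ) := by norm_num
      rw [this]
      exact IntermediateField.natCast_mem _ _
    | 1, _ =>
      rw [pow_one, pow_one]; exact hw
    | (l + 2), ih =>
      have e : ζ ^ (l + 2) + η ^ (l + 2) =
          (ζ + η) * (ζ ^ (l + 1) + η ^ (l + 1)) - ε * (ζ ^ l + η ^ l) := by
        rw [← hprod]; ring
      rw [e]
      exact sub_mem (mul_mem hw (ih (l + 1) (by omega))) (mul_mem hεm (ih l (by omega)))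

theorem b2 {G : Type*} [Group G] [Finite G] (N : ℕ) (hN : 0 < N) (ζ : ℂ)
    (hζ : IsPrimitiveRoot ζ N) (g x : G) (i : ℕ) (hg : g ^ N = 1) (hx : x * g * x⁻¹ = g ^ i)
    (ε : ℂ) (hε : ε = 1 ∨ ε = -1) (hi : ζ ^ i = ε * ζ⁻¹) (χ : IrrCharacter G) :
    (χ : G → ℂ) g ∈ IntermediateField.adjoin ℚ ({ζ + ε * ζ⁻¹} : Set ℂ) := by
  have hζ0 : ζ ≠ 0 := hζ.ne_zero (by omega)
  obtain ⟨m, hm⟩ := irr_pow_eq N hN ζ hζ g hg χ
  have hcl : (χ : G → ℂ) (g ^ i) = (χ : G → ℂ) g := by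
    rw [← hx]
    exact Helper83.irr_classFunction χ.2 g x
  have h1 := hm 1
  rw [pow_one] at h1
  have h2 := hm i
  rw [hcl] at h2
  have hprod : ζ * (ε * ζ⁻¹) = ε := by
    rw [mul_comm ε, ← mul_assoc, mul_inv_cancel₀ hζ0, one_mul]
  have h3 : (χ : G → ℂ) g = (2 : ℂ)⁻¹ *
      ∑ l ∈ range N, (m l : ℂ) * (ζ ^ l + (ε * ζ⁻¹) ^ l) := by
    have h4 : ∑ l ∈ range N, (m l : ℂ) * (ζ ^ l + (ε * ζ⁻¹) ^ l) =
        (χ : G → ℂ) g + (χ : G → ℂ) g := by
      nth_rewrite 1 [h1]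
      rw [h2, ← Finset.sum_add_distrib]
      refine Finset.sum_congr rfl fun l _ => ?_
      rw [pow_one, ← pow_mul, mul_comm l i, pow_mul, hi]
      ring
    rw [h4]; ring
  rw [h3]
  apply mul_mem
  · have : (2 : ℂ)⁻¹ = ((2 : ℕ) : ℂ)⁻¹ := by norm_num
    rw [this]
    exact inv_mem (IntermediateField.natCast_mem _ _)
  · apply sum_mem
    intro l _
    exact mul_mem (IntermediateField.natCast_mem _ _) (pow_sum_mem ζ (ε * ζ⁻¹) ε hε hprod l)

end Cfsg.Agent.Lib.Helper83.T23
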