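import Mathlib
import Cfsg.Prelude.Def_Blocks
import Cfsg.Agent.Lib.Helper80.Galois
import Cfsg.Agent.Lib.Helper80.EV
import Cfsg.Agent.Lib.Helper83.Schur

set_option autoImplicit false
set_option linter.unusedSectionVars false
set_option linter.style.haveILetI false
set_option linter.unusedVariables false

namespace Cfsg.Agent.Lib.Helper83.T23

open Cfsg Cfsg.Agent.Lib

/-- a ring automorphism of `ℂ` with `τ ζ = ζ ^ k` acts on the values at `g` (where `g ^ N = 1`)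
of irreducible characters as the `k`-th power map -/
theorem twist_val {G : Type*} [Group G] (N : ℕ) (hN : 0 < N) (ζ : ℂ) (hζ : IsPrimitiveRoot ζ N)
    (g : G) (hg : g ^ N = 1) (k : ℕ) (τ : ℂ ≃+* ℂ) (hτ : τ ζ = ζ ^ k) (χ : IrrCharacter G) :
    τ ((χ : G → ℂ) g) = (χ : G → ℂ) (g ^ k) := by
  obtain ⟨m, ρ, hρ, hχ⟩ := χ.2
  obtain ⟨mult, hm⟩ := Helper80.character_pow_eq ρ g N hN hg ζ hζ
  have h1 := hm 1
  have hk' := hm k
  rw [pow_one] at h1
  rw [← hχ, h1, hk', map_sum]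
  refine Finset.sum_congr rfl fun j _ => ?_
  rw [map_mul, map_natCast, pow_one, map_pow, hτ]
  ring

/-- the fixed field of a ring automorphism of `ℂ` -/
def fixField (τ : ℂ ≃+* ℂ) : IntermediateField ℚ ℂ where
  carrier := {z | τ z = z}
  mul_mem' := by
    intro a b ha hb
    show τ (a * b) = a * b
    rw [map_mul, show τ a = a from ha, show τ b = b from hb]
  one_mem' := map_one τ
  add_mem' := by
    intro a b ha hb
    show τ (a + b) = a + b
    rw [map_add, show τ a = a from ha, show τ b = b from hb]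
  zero_mem' := map_zero τ
  algebraMap_mem' := by
    intro r
    show τ (algebraMap ℚ ℂ r) = algebraMap ℚ ℂ r
    exact map_ratCast τ r
  inv_mem' := by
    intro a ha
    show τ a⁻¹ = a⁻¹
    rw [map_inv₀, show τ a = a from ha]

/-- a ring automorphism fixing a set pointwise fixes the field it generates over `ℚ` -/
theorem fix_adjoin (τ : ℂ ≃+* ℂ) (S : Set ℂ) (hS : ∀ s ∈ S, τ s = s) (z : ℂ)
    (hz : z ∈ IntermediateField.adjoin ℚ S) : τ z = z := by
  have hle : IntermediateField.adjoin ℚ S ≤ fixField τ := by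
    rw [IntermediateField.adjoin_le_iff]
    intro s hs
    exact hS s hs
  exact hle hz

theorem c1 {G : Type*} [Group G] [Finite G] (n : ℕ) (hn : 4 ≤ n) (ζ : ℂ)
    (hζ : IsPrimitiveRoot ζ (2 ^ (n - 1))) (g : G) (hg : g ^ 2 ^ (n - 1) = 1)
    (ε : ℂ) (hε : ε = 1 ∨ ε = -1)
    (hF : IntermediateField.adjoin ℚ {z : ℂ | ∃ χ : IrrCharacter G, (χ : G → ℂ) g = z} =
      IntermediateField.adjoin ℚ ({ζ + ε * ζ⁻¹} : Set ℂ)) :
    orderOf g = 2 ^ (n - 1) ∧ ∃ (x : G) (k : ℕ),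
      (k % 2 ^ (n - 1) = 2 ^ (n - 1) - 1 ∨ k % 2 ^ (n - 1) = 2 ^ (n - 2) - 1) ∧
      x * g * x⁻¹ = g ^ k := by
  obtain ⟨m, rfl⟩ : ∃ m, n = m + 4 := ⟨n - 4, by omega⟩
  have e1 : 2 ^ (m + 4 - 1) = 8 * 2 ^ m := by
    rw [show m + 4 - 1 = m + 3 by omega, pow_add]; ring
  have e2 : 2 ^ (m + 4 - 2) = 4 * 2 ^ m := by
    rw [show m + 4 - 2 = m + 2 by omega, pow_add]; ring
  rw [e1] at hζ hg ⊢
  rw [e2]
  have hM : 1 ≤ 2 ^ m := Nat.one_le_two_pow
  set M := 2 ^ m with hMdef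
  have hNpos : 0 < 8 * M := by omega
  have hζ0 : ζ ≠ 0 := hζ.ne_zero (by omega)
  have hhalf : ζ ^ (4 * M) = -1 := by
    have h1 : (ζ ^ (4 * M)) ^ 2 = 1 := by
      rw [← pow_mul, show 4 * M * 2 = 8 * M by ring]
      exact hζ.pow_eq_one
    have h2 : ζ ^ (4 * M) ≠ 1 := by
      intro h
      have := hζ.dvd_of_pow_eq_one _ h
      exact absurd (Nat.le_of_dvd (by omega) this) (by omega)
    rcases mul_self_eq_one_iff.mp ((sq (ζ ^ (4 * M))).symm.trans h1) with h | h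
    · exact absurd h h2
    · exact h
  have hodd : ∀ k : ℕ, Odd k → Nat.Coprime k (8 * M) := by
    intro k hk
    have h2 : Nat.Coprime k 2 := Nat.coprime_two_right.mpr hk
    have : 8 * M = 2 ^ (m + 3) := by rw [pow_add, hMdef]; ring
    rw [this]
    exact Nat.Coprime.pow_right _ h2
  -- the set of values
  set S : Set ℂ := {z : ℂ | ∃ χ : IrrCharacter G, (χ : G → ℂ) g = z} with hSdef
  have key : ∀ (k : ℕ) (τ : ℂ ≃+* ℂ), τ ζ = ζ ^ k → τ (ζ + ε * ζ⁻¹) = ζ + ε * ζ⁻¹ →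
      ∀ χ : IrrCharacter G, (χ : G → ℂ) (g ^ k) = (χ : G → ℂ) g := by
    intro k τ hτ hw χ
    rw [← twist_val (8 * M) hNpos ζ hζ g hg k τ hτ χ]
    apply fix_adjoin τ {ζ + ε * ζ⁻¹} (by
      intro s hs
      rw [Set.mem_singleton_iff] at hs
      rw [hs]; exact hw)
    rw [← hF]
    exact IntermediateField.subset_adjoin ℚ _ ⟨χ, rfl⟩
  constructor
  · -- order
    by_contra hne
    have hdvd : orderOf g ∣ 2 ^ (m + 3) := by
      have : 8 * M = 2 ^ (m + 3) := by rw [pow_add, hMdef]; ring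
      rw [← this]
      exact orderOf_dvd_of_pow_eq_one hg
    obtain ⟨j, hj, hoj⟩ := (Nat.dvd_prime_pow Nat.prime_two).mp hdvd
    have hj2 : j ≤ m + 2 := by
      by_contra hcon
      have : j = m + 3 := by omega
      apply hne
      rw [hoj, this, pow_add, hMdef]; ring
    have hg2 : g ^ (4 * M) = 1 := by
      apply orderOf_dvd_iff_pow_eq_one.mp
      rw [hoj, show 4 * M = 2 ^ (m + 2) by rw [pow_add, hMdef]; ring]
      exact pow_dvd_pow 2 hj2
    obtain ⟨τ, hτ⟩ := Helper80.exists_ringEquiv_pow (8 * M) (4 * M + 1) hNpos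
      (hodd _ ⟨2 * M, by ring⟩) ζ hζ
    have hτζ : τ ζ = -ζ := by rw [hτ, pow_succ, hhalf]; ring
    have hfix : ∀ s ∈ S, τ s = s := by
      rintro s ⟨χ, rfl⟩
      rw [twist_val (8 * M) hNpos ζ hζ g hg _ τ hτ χ, pow_succ, hg2, one_mul]
    have hw : τ (ζ + ε * ζ⁻¹) = ζ + ε * ζ⁻¹ := by
      apply fix_adjoin τ S hfix
      rw [hF]
      exact IntermediateField.subset_adjoin ℚ _ (Set.mem_singleton _)
    have hτε : τ ε = ε := by
      rcases hε with h | h
      · rw [h, map_one]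
      · rw [h, map_neg, map_one]
    rw [map_add, map_mul, map_inv₀, hτζ, hτε] at hw
    have hw0 : ζ + ε * ζ⁻¹ = 0 := by
      have h3 : -ζ + ε * (-ζ)⁻¹ = -(ζ + ε * ζ⁻¹) := by
        rw [inv_neg]; ring
      rw [h3] at hw
      have h4 : (2 : ℂ) * (ζ + ε * ζ⁻¹) = 0 := by linear_combination -hw
      rcases mul_eq_zero.mp h4 with h | h
      · norm_num at h
      · exact h
    have hsq : ζ ^ 2 = -ε := by
      have h5 : (ζ + ε * ζ⁻¹) * ζ = 0 := by rw [hw0, zero_mul]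
      rw [add_mul, mul_assoc, inv_mul_cancel₀ hζ0, mul_one] at h5
      linear_combination h5
    have h4 : ζ ^ 4 = 1 := by
      have : ζ ^ 4 = (ζ ^ 2) ^ 2 := by ring
      rw [this, hsq]
      rcases hε with h | h <;> rw [h] <;> norm_num
    have := hζ.dvd_of_pow_eq_one _ h4
    exact absurd (Nat.le_of_dvd (by norm_num) this) (by omega)
  · rcases hε with h | h
    · -- ε = 1, k = N - 1
      obtain ⟨τ, hτ⟩ := Helper80.exists_ringEquiv_pow (8 * M) (8 * M - 1) hNpos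
        (hodd _ ⟨4 * M - 1, by omega⟩) ζ hζ
      have hζk : ζ ^ (8 * M - 1) = ζ⁻¹ := by
        apply eq_inv_of_mul_eq_one_left
        rw [← pow_succ, show 8 * M - 1 + 1 = 8 * M by omega]
        exact hζ.pow_eq_one
      have hw : τ (ζ + ε * ζ⁻¹) = ζ + ε * ζ⁻¹ := by
        rw [h, one_mul, map_add, map_inv₀, hτ, hζk, inv_inv, add_comm]
      have hc : IsConj g (g ^ (8 * M - 1)) :=
        Helper83.irr_separates (fun χ => (key _ τ hτ hw χ).symm)
      obtain ⟨x, hx⟩ := isConj_iff.mp hc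
      exact ⟨x, 8 * M - 1, Or.inl (Nat.mod_eq_of_lt (by omega)), hx⟩
    · -- ε = -1, k = N/2 - 1
      obtain ⟨τ, hτ⟩ := Helper80.exists_ringEquiv_pow (8 * M) (4 * M - 1) hNpos
        (hodd _ ⟨2 * M - 1, by omega⟩) ζ hζ
      have hζk : ζ ^ (4 * M - 1) = -ζ⁻¹ := by
        have h1 : ζ ^ (4 * M - 1) * ζ = -1 := by
          rw [← pow_succ, show 4 * M - 1 + 1 = 4 * M by omega]
          exact hhalf
        have h2 : ζ ^ (4 * M - 1) = ζ ^ (4 * M - 1) * ζ * ζ⁻¹ := by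
          rw [mul_assoc, mul_inv_cancel₀ hζ0, mul_one]
        rw [h2, h1]; ring
      have hw : τ (ζ + ε * ζ⁻¹) = ζ + ε * ζ⁻¹ := by
        rw [h, map_add, map_mul, map_neg, map_one, map_inv₀, hτ, hζk, inv_neg, inv_inv]
        ring
      have hc : IsConj g (g ^ (4 * M - 1)) :=
        Helper83.irr_separates (fun χ => (key _ τ hτ hw χ).symm)
      obtain ⟨x, hx⟩ := isConj_iff.mp hc
      exact ⟨x, 4 * M - 1, Or.inr (Nat.mod_eq_of_lt (by omega)), hx⟩

end Cfsg.Agent.Lib.Helper83.T23
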