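import Mathlib
import Cfsg.Agent.Lib.Helper3.MaxClass

set_option autoImplicit false
set_option linter.unusedSectionVars false
set_option linter.style.haveILetI false
set_option linter.unusedVariables false

namespace Cfsg.Agent.Lib.Helper83.T23

open Cfsg.Agent.Lib

theorem ga {X : Type*} [Group X] [Finite X] (n : ℕ) (hn : 3 ≤ n)
    (hX : Nat.card X = 2 ^ n) (h4 : (commutator X).index = 4) :
    ∃ (g t : X) (i : ℕ), orderOf g = 2 ^ (n - 1) ∧ t * g * t⁻¹ = g ^ i ∧ t * g ≠ g * t ∧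
      2 ^ (n - 2) ∣ i + 1 := by
  obtain ⟨h, hH2⟩ := Helper3.theoremT n hn X hX h4
  set H := Subgroup.zpowers h with hHdef
  have hcardH : Nat.card H = 2 ^ (n - 1) := by
    have h1 := H.card_mul_index
    rw [hH2, hX] at h1
    have h2 : 2 ^ n = 2 ^ (n - 1) * 2 := by
      rw [← pow_succ, show n - 1 + 1 = n by omega]
    rw [h2] at h1
    exact Nat.eq_of_mul_eq_mul_right (by norm_num) h1
  have ho : orderOf h = 2 ^ (n - 1) := by rw [← Nat.card_zpowers]; exact hcardH
  have hHc : ∀ a ∈ H, ∀ b ∈ H, a * b = b * a := by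
    intro a ha b hb
    obtain ⟨i, rfl⟩ := Subgroup.mem_zpowers_iff.mp ha
    obtain ⟨j, rfl⟩ := Subgroup.mem_zpowers_iff.mp hb
    rw [← zpow_add, ← zpow_add, add_comm]
  have hHn : H.Normal := Subgroup.normal_of_index_eq_two hH2
  have hhH : h ∈ H := Subgroup.mem_zpowers h
  obtain ⟨t, ht⟩ : ∃ t : X, t ∉ H := by
    by_contra hcon
    push Not at hcon
    have : H = ⊤ := (Subgroup.eq_top_iff' H).mpr hcon
    rw [this, Subgroup.index_top] at hH2
    omega
  have hconj : t * h * t⁻¹ ∈ H := hHn.conj_mem h hhH t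
  obtain ⟨i, hi⟩ : ∃ i : ℕ, h ^ i = t * h * t⁻¹ := by
    have := mem_powers_iff_mem_zpowers.mpr hconj
    exact (Submonoid.mem_powers_iff _ _).mp this
  have hcd := Helper3.center_data (X := X) (n - 3)
    (by rw [hX, show n - 3 + 3 = n by omega]) h4 h hH2
  obtain ⟨hc2, -, -⟩ := hcd
  have hgt : t * h ≠ h * t := by
    intro hcomm
    have hz : h ∈ Subgroup.center X :=
      Helper3.mem_center_of_index2 H hHc hH2 t ht h hhH hcomm.symm
    have hdvd : orderOf h ∣ Nat.card (Subgroup.center X) :=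
      Subgroup.orderOf_dvd_natCard _ hz
    rw [ho, hc2] at hdvd
    have hle := Nat.le_of_dvd (by norm_num) hdvd
    have : 2 ^ 2 ≤ 2 ^ (n - 1) := Nat.pow_le_pow_right (by norm_num) (by omega)
    omega
  refine ⟨h, t, i, ho, hi.symm, hgt, ?_⟩
  -- z = h^(i+1) is central
  have htt : t * t ∈ H := by
    have := Subgroup.sq_mem_of_index_two hH2 t
    rwa [sq] at this
  have htth : (t * t) * h = h * (t * t) := hHc _ htt _ hhH
  have hii : (h ^ i) ^ i = h := by
    have h1 : (h ^ i) ^ i = t * h ^ i * t⁻¹ := by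
      conv_lhs => rw [hi, conj_pow]
    rw [h1, hi]
    calc t * (t * h * t⁻¹) * t⁻¹ = ((t * t) * h) * (t⁻¹ * t⁻¹) := by group
      _ = h * (t * t) * (t⁻¹ * t⁻¹) := by rw [htth]
      _ = h := by group
  have hzt : h ^ (i + 1) * t = t * h ^ (i + 1) := by
    have h1 : t * h ^ (i + 1) * t⁻¹ = h ^ (i + 1) := by
      rw [← conj_pow, ← hi, pow_succ, hii, pow_succ']
    calc h ^ (i + 1) * t = t * h ^ (i + 1) * t⁻¹ * t := by rw [h1]
      _ = t * h ^ (i + 1) := by group
  have hzc : h ^ (i + 1) ∈ Subgroup.center X :=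
    Helper3.mem_center_of_index2 H hHc hH2 t ht _ (H.pow_mem hhH _) hzt
  have hz2 : (h ^ (i + 1)) ^ 2 = 1 := by
    have hdvd : orderOf (h ^ (i + 1)) ∣ Nat.card (Subgroup.center X) :=
      Subgroup.orderOf_dvd_natCard _ hzc
    rw [hc2] at hdvd
    exact orderOf_dvd_iff_pow_eq_one.mp hdvd
  rw [← pow_mul] at hz2
  have hd := orderOf_dvd_of_pow_eq_one hz2
  rw [ho] at hd
  have h2 : 2 ^ (n - 1) = 2 ^ (n - 2) * 2 := by
    rw [← pow_succ, show n - 2 + 1 = n - 1 by omega]
  rw [h2] at hd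
  exact Nat.dvd_of_mul_dvd_mul_right (by norm_num) hd

end Cfsg.Agent.Lib.Helper83.T23
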