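import Mathlib
import Cfsg.Agent.Lib.Helper3.MaxClass

set_option autoImplicit false
set_option linter.unusedSectionVars false
set_option linter.style.haveILetI false
set_option linter.unusedVariables false

namespace Cfsg.Agent.Lib.Helper83.T23

open Cfsg.Agent.Lib
open scoped commutatorElement

theorem gp {G : Type*} [Group G] [Finite G] (P : Sylow 2 G) (n : ℕ) (hn : 3 ≤ n)
    (hP : Nat.card P = 2 ^ n) (g : G) (hg : g ∈ (P : Subgroup G))
    (h2 : 2 ∣ (Subgroup.centralizer ({g} : Set G)).index) :
    g ^ 2 ^ (n - 1) = 1 ∧ (n = 3 → (commutator ↥P).index = 4) := by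
  have hfact : Fact (Nat.Prime 2) := ⟨Nat.prime_two⟩
  have hnc : ¬ ∀ a b : ↥P, a * b = b * a := by
    intro hcomm
    have hle : (P : Subgroup G) ≤ Subgroup.centralizer ({g} : Set G) := by
      intro x hx
      rw [Subgroup.mem_centralizer_iff]
      intro y hy
      rw [Set.mem_singleton_iff] at hy
      subst hy
      have := hcomm ⟨y, hg⟩ ⟨x, hx⟩
      exact congrArg Subtype.val this
    have hdvd := Subgroup.index_dvd_of_le hle
    exact P.not_dvd_index (dvd_trans h2 hdvd)
  have hPg : IsPGroup 2 ↥P := P.isPGroup'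
  constructor
  · set g' : ↥P := ⟨g, hg⟩ with hg'
    have hdvd : orderOf g' ∣ 2 ^ n := hP ▸ orderOf_dvd_natCard g'
    obtain ⟨j, hj, hoj⟩ := (Nat.dvd_prime_pow Nat.prime_two).mp hdvd
    have hj1 : j ≤ n - 1 := by
      by_contra hcon
      have hjn : j = n := by omega
      apply hnc
      apply Helper3.comm_of_zpowers_top g'
      apply Subgroup.eq_top_of_card_eq
      rw [Nat.card_zpowers, hoj, hjn]
      exact hP.symm
    have h1 : g' ^ 2 ^ (n - 1) = 1 := by
      apply orderOf_dvd_iff_pow_eq_one.mp
      rw [hoj]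
      exact pow_dvd_pow 2 hj1
    have := congrArg Subtype.val h1
    simpa using this
  · intro hn3
    subst hn3
    have h1 := (commutator ↥P).card_mul_index
    have hP' : Nat.card ↥P = 2 ^ 3 := hP
    rw [hP'] at h1
    have hdvd : (commutator ↥P).index ∣ 2 ^ 3 := Dvd.intro_left _ h1
    obtain ⟨j, hj, hij⟩ := (Nat.dvd_prime_pow Nat.prime_two).mp hdvd
    have hj3 : j ≠ 3 := by
      intro h
      rw [hij, h] at h1
      have hc1 : Nat.card (commutator ↥P) = 1 := by omega
      have hbot : commutator ↥P = ⊥ := (Subgroup.card_eq_one).mp hc1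
      apply hnc
      intro a b
      have hab : ⁅a, b⁆ ∈ commutator ↥P := by
        rw [commutator_def]
        exact Subgroup.commutator_mem_commutator (Subgroup.mem_top _) (Subgroup.mem_top _)
      rw [hbot, Subgroup.mem_bot] at hab
      exact (commutatorElement_eq_one_iff_commute.mp hab).eq
    have hj2 : ¬ j ≤ 1 := by
      intro h
      apply hnc
      apply Helper3.comm_of_cyclic_abelianization hPg
      have hcard : Nat.card (↥P ⧸ commutator ↥P) = 2 ^ j := by
        rw [← hij]; rfl
      have hj01 : j = 0 ∨ j = 1 := by omega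
      rcases hj01 with h0 | h1'
      · rw [h0, pow_zero] at hcard
        have : Subsingleton (↥P ⧸ commutator ↥P) := (Nat.card_eq_one_iff_unique.mp hcard).1
        exact isCyclic_of_subsingleton
      · rw [h1', pow_one] at hcard
        exact isCyclic_of_prime_card hcard
    have : j = 2 := by omega
    rw [hij, this]
    norm_num

end Cfsg.Agent.Lib.Helper83.T23
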