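import Mathlib
import Cfsg.Agent.Lib.Helper18.LSDefs
import Cfsg.Agent.Lib.Helper18.WRDefs

/-! Project WR (S2347, helper18), piece DIM: the dimension of the function space `E` and the
cardinality of the vector space `V`. -/

set_option autoImplicit false
set_option linter.unusedSectionVars false

namespace Cfsg.Agent.Lib.Helper18.WR

open Matrix

universe u

variable {F : Type u} [Field F] {n : ℕ}

-- piece DIM
theorem finrank_E [Fintype F] :
    Module.finrank ℂ ((Fin n → F) → ℂ) = Fintype.card F ^ n := by
  classical
  rw [Module.finrank_fintype_fun_eq_card, Fintype.card_fun, Fintype.card_fin]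

-- piece DIM
theorem card_V [Fintype F] : Nat.card (Fin n ⊕ Fin n → F) = (Fintype.card F ^ n) ^ 2 := by
  classical
  rw [Nat.card_eq_fintype_card, Fintype.card_fun, Fintype.card_sum, Fintype.card_fin, pow_add, sq]

end Cfsg.Agent.Lib.Helper18.WR
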